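/-
The relations of root elements of type `B₂` in characteristic two, and the normal form.
-/
import Mathlib

set_option autoImplicit false

namespace Cfsg.Agent.Lib.Chev

/-- The relations of root elements of type `B₂` in characteristic two. -/
structure B2Rel {K G : Type*} [Field K] [Group G] (xa xb xc xd : K → G) : Prop where
  addA : ∀ s t, xa s * xa t = xa (s + t)
  addB : ∀ s t, xb s * xb t = xb (s + t)
  addC : ∀ s t, xc s * xc t = xc (s + t)
  addD : ∀ s t, xd s * xd t = xd (s + t)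
  ba : ∀ t u, xb u * xa t = xa t * xb u * xc (t * u) * xd (t ^ 2 * u)
  ac : ∀ t u, Commute (xa t) (xc u)
  ad : ∀ t u, Commute (xa t) (xd u)
  bc : ∀ t u, Commute (xb t) (xc u)
  bd : ∀ t u, Commute (xb t) (xd u)
  cd : ∀ t u, Commute (xc t) (xd u)

namespace B2Rel

variable {K G : Type*} [Field K] [Group G] {xa xb xc xd : K → G}

/-- The normal form. -/
def gg (xa xb xc xd : K → G) (α β γ δ : K) : G := xa α * xb β * xc γ * xd δ

variable (R : B2Rel xa xb xc xd)
include R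

omit R in
lemma zero_of_add {x : K → G} (h : ∀ s t, x s * x t = x (s + t)) : x 0 = 1 := by
  have := h 0 0
  rw [add_zero] at this
  exact mul_eq_left.1 this

/-- The multiplication of the normal form. -/
theorem gg_mul (α β γ δ α' β' γ' δ' : K) :
    gg xa xb xc xd α β γ δ * gg xa xb xc xd α' β' γ' δ' =
      gg xa xb xc xd (α + α') (β + β') (α' * β + γ + γ') (α' ^ 2 * β + δ + δ') := by
  unfold gg
  calc xa α * xb β * xc γ * xd δ * (xa α' * xb β' * xc γ' * xd δ')
      = xa α * xb β * xc γ * (xd δ * xa α') * xb β' * xc γ' * xd δ' := by group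
    _ = xa α * xb β * (xc γ * xa α') * xd δ * xb β' * xc γ' * xd δ' := by
        rw [(R.ad α' δ).symm.eq]; group
    _ = xa α * (xb β * xa α') * xc γ * xd δ * xb β' * xc γ' * xd δ' := by
        rw [(R.ac α' γ).symm.eq]; group
    _ = xa α * (xa α' * xb β * xc (α' * β) * xd (α' ^ 2 * β)) * xc γ * xd δ * xb β' * xc γ' * xd δ' := by
        rw [R.ba]
    _ = (xa α * xa α') * xb β * xc (α' * β) * (xd (α' ^ 2 * β) * xc γ) * xd δ * xb β' * xc γ' * xd δ' := by group
    _ = (xa α * xa α') * xb β * xc (α' * β) * (xc γ * xd (α' ^ 2 * β)) * xd δ * xb β' * xc γ' * xd δ' := by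
        rw [(R.cd γ _).symm.eq]
    _ = xa (α + α') * xb β * (xc (α' * β) * xc γ) * (xd (α' ^ 2 * β) * xd δ) * xb β' * xc γ' * xd δ' := by
        rw [R.addA]; group
    _ = xa (α + α') * xb β * xc (α' * β + γ) * (xd (α' ^ 2 * β + δ) * xb β') * xc γ' * xd δ' := by
        rw [R.addC, R.addD]; group
    _ = xa (α + α') * xb β * (xc (α' * β + γ) * xb β') * xd (α' ^ 2 * β + δ) * xc γ' * xd δ' := by
        rw [(R.bd β' _).symm.eq]; group
    _ = xa (α + α') * (xb β * xb β') * xc (α' * β + γ) * (xd (α' ^ 2 * β + δ) * xc γ') * xd δ' := by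
        rw [(R.bc β' _).symm.eq]; group
    _ = xa (α + α') * xb (β + β') * (xc (α' * β + γ) * xc γ') * (xd (α' ^ 2 * β + δ) * xd δ') := by
        rw [R.addB, (R.cd γ' _).symm.eq]; group
    _ = _ := by rw [R.addC, R.addD]

lemma gg_zero : gg xa xb xc xd 0 0 0 0 = 1 := by
  unfold gg
  rw [zero_of_add R.addA, zero_of_add R.addB, zero_of_add R.addC, zero_of_add R.addD]
  simp

/-- The inverse of the normal form. -/
theorem gg_inv (α β γ δ : K) :
    (gg xa xb xc xd α β γ δ)⁻¹ = gg xa xb xc xd (-α) (-β) (-((-α) * β + γ)) (-((-α) ^ 2 * β + δ)) := by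
  refine inv_eq_of_mul_eq_one_right ?_
  rw [R.gg_mul]
  have e : ∀ a : K, a + -a = 0 := add_neg_cancel
  rw [e, e, e, e]
  exact R.gg_zero

/-- The set of normal forms as a subgroup. -/
def ggSub (R : B2Rel xa xb xc xd) : Subgroup G where
  carrier := {g | ∃ α β γ δ, g = gg xa xb xc xd α β γ δ}
  one_mem' := ⟨0, 0, 0, 0, R.gg_zero.symm⟩
  mul_mem' := by
    rintro a b ⟨α, β, γ, δ, rfl⟩ ⟨α', β', γ', δ', rfl⟩
    exact ⟨_, _, _, _, R.gg_mul ..⟩
  inv_mem' := by
    rintro a ⟨α, β, γ, δ, rfl⟩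
    exact ⟨_, _, _, _, R.gg_inv ..⟩

lemma gg_a (t : K) : gg xa xb xc xd t 0 0 0 = xa t := by
  unfold gg
  rw [zero_of_add R.addB, zero_of_add R.addC, zero_of_add R.addD]
  simp

lemma gg_b (t : K) : gg xa xb xc xd 0 t 0 0 = xb t := by
  unfold gg
  rw [zero_of_add R.addA, zero_of_add R.addC, zero_of_add R.addD]
  simp

lemma gg_c (t : K) : gg xa xb xc xd 0 0 t 0 = xc t := by
  unfold gg
  rw [zero_of_add R.addA, zero_of_add R.addB, zero_of_add R.addD]
  simp

lemma gg_d (t : K) : gg xa xb xc xd 0 0 0 t = xd t := by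
  unfold gg
  rw [zero_of_add R.addA, zero_of_add R.addB, zero_of_add R.addC]
  simp

/-- The normal form in another order. -/
lemma gg_nf (α β γ δ : K) :
    gg xa xb xc xd α β γ δ = xb β * xa α * xc (γ - α * β) * xd (δ - α ^ 2 * β) := by
  unfold gg
  rw [R.ba]
  calc xa α * xb β * xc γ * xd δ = xa α * xb β * xc (α * β + (γ - α * β)) * xd (α ^ 2 * β + (δ - α ^ 2 * β)) := by
        congr 3 <;> ring
    _ = xa α * xb β * (xc (α * β) * xc (γ - α * β)) * (xd (α ^ 2 * β) * xd (δ - α ^ 2 * β)) := by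
        rw [R.addC, R.addD]
    _ = xa α * xb β * xc (α * β) * (xc (γ - α * β) * xd (α ^ 2 * β)) * xd (δ - α ^ 2 * β) := by group
    _ = xa α * xb β * xc (α * β) * (xd (α ^ 2 * β) * xc (γ - α * β)) * xd (δ - α ^ 2 * β) := by
        rw [(R.cd _ _).eq]
    _ = _ := by group

/-- The form of the image under the exchange of the roots. -/
theorem swap_form (A₁ A₂ A₃ A₄ : K) :
    xb A₁ * xa A₂ * xd A₃ * xc A₄ = gg xa xb xc xd A₂ A₁ (A₂ * A₁ + A₄) (A₂ ^ 2 * A₁ + A₃) := by
  unfold gg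
  rw [R.ba, ← R.addC, ← R.addD]
  have := (R.cd A₄ (A₂ ^ 2 * A₁)).eq
  have h2 := (R.cd A₄ A₃).eq
  calc xa A₂ * xb A₁ * xc (A₂ * A₁) * xd (A₂ ^ 2 * A₁) * xd A₃ * xc A₄
      = xa A₂ * xb A₁ * xc (A₂ * A₁) * xd (A₂ ^ 2 * A₁) * (xd A₃ * xc A₄) := by group
    _ = xa A₂ * xb A₁ * xc (A₂ * A₁) * (xd (A₂ ^ 2 * A₁) * xc A₄) * xd A₃ := by
        rw [← h2]; group
    _ = _ := by rw [← this]; group

end B2Rel

end Cfsg.Agent.Lib.Chev
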