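/-
The group ²F₄(q): the relations of the root elements in characteristic two, the automorphism and the orbit data.
-/
import Cfsg.Agent.Lib.Tw.ExcTw
import Cfsg.Agent.Lib.Tw.B2Rel
import Cfsg.Agent.Lib.Tw.Gen
import Cfsg.Agent.Lib.Chev.T3F4

set_option autoImplicit false
set_option maxRecDepth 100000

namespace Cfsg.Agent.Lib.Chev

open Cfsg.Lie

section

variable {K : Type*} [Field K]

/-- The root elements of type `F₄`. -/
noncomputable abbrev xF4 (r : ℕ) (t : K) : GL chevF4.Idx K := good3F4.toGood2.xN r t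

/-- A pair of root elements commuting in characteristic two. -/
lemma commF4 [CharP K 2] {r s : ℕ} (h : digF4.tbl.chkWEq 2 [(r, mP 1 1 0), (s, mP 1 0 1)] [(s, mP 1 0 1), (r, mP 1 1 0)] = true) (a b : K) :
    Commute (xF4 r a) (xF4 s b) := by
  have e := good3F4.toGood2.wEq (F := K) h a b
  simpa [mP_val, Commute, SemiconjBy] using e

/-- The relations in characteristic two. -/
theorem f4Rel [CharP K 2] : B2Rel (xF4 (K := K) 27) (xF4 25) (xF4 28) (xF4 30) where
  addA := fun s t => good3F4.toGood2.xN_add (by decide) s t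
  addB := fun s t => good3F4.toGood2.xN_add (by decide) s t
  addC := fun s t => good3F4.toGood2.xN_add (by decide) s t
  addD := fun s t => good3F4.toGood2.xN_add (by decide) s t
  ba := fun t u => by
    have e := good3F4.toGood2.wEq (F := K) (p := 2) (w := [(25, mP 1 0 1), (27, mP 1 1 0)])
      (w' := [(27, mP 1 1 0), (25, mP 1 0 1), (28, mP 1 1 1), (30, mP 1 2 1)]) (by decide +kernel) t u
    simpa [mP_val, mul_assoc] using e
  ac := commF4 (by decide +kernel)
  ad := commF4 (by decide +kernel)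
  bc := commF4 (by decide +kernel)
  bd := commF4 (by decide +kernel)
  cd := commF4 (by decide +kernel)

/-- The normal form of type `B₂`. -/
noncomputable abbrev ggF4 (α β γ δ : K) : GL chevF4.Idx K :=
  B2Rel.gg (xF4 (K := K) 27) (xF4 25) (xF4 28) (xF4 30) α β γ δ

lemma ggF4_eq_gW (α β γ δ : K) :
    ggF4 α β γ δ = good3F4.toGood2.gW [(27, α), (25, β), (28, γ), (30, δ)] := by
  simp [B2Rel.gg, mul_assoc]

theorem tauF4 : excF4.tau 27 = 25 ∧ excF4.tau 25 = 27 ∧ excF4.tau 28 = 30 ∧ excF4.tau 30 = 28 ∧ excF4.tau 33 = 24 ∧ excF4.tau 24 = 33 := by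
  decide +kernel

theorem expF4 : excF4.exp 27 = 2 ∧ excF4.exp 25 = 1 ∧ excF4.exp 28 = 2 ∧ excF4.exp 30 = 1 ∧ excF4.exp 33 = 2 ∧ excF4.exp 24 = 1 := by
  decide +kernel

section Tw

variable [CharP K 2]

/-- The twisted automorphism of type `F₄`. -/
noncomputable def twF4 (hperf : ∀ x : K, ∃ y : K, y ^ 2 = x) (φ : K ≃+* K) : Tw good3F4.toGood2 K :=
  haveI : Fact excF4.p.Prime := ⟨Nat.prime_two⟩
  haveI : CharP K excF4.p := ‹CharP K 2›
  Tw.ofExc good3F4.toGood2 excF4 excF4_gen hperf φ excF4_pos (by decide +kernel) (by decide +kernel)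

variable (hperf : ∀ x : K, ∃ y : K, y ^ 2 = x) (φ : K ≃+* K)

lemma twF4_tau : (twF4 hperf φ).τ = excF4.tau := rfl

lemma twF4_f (r : ℕ) (t : K) : (twF4 hperf φ).f r t = φ (t ^ excF4.exp r) := rfl

/-- The image of the normal form. -/
theorem sig_ggF4 (α β γ δ : K) :
    (twF4 hperf φ).sig (ggF4 α β γ δ) =
      ggF4 (φ β) (φ (α ^ 2)) (φ β * φ (α ^ 2) + φ δ) ((φ β) ^ 2 * φ (α ^ 2) + φ (γ ^ 2)) := by
  refine Eq.trans ?_ ((f4Rel (K := K)).swap_form (φ (α ^ 2)) (φ β) (φ (γ ^ 2)) (φ δ))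
  rw [ggF4_eq_gW, Tw.sig_gW _ (by
    intro e he
    simp only [List.mem_cons, List.not_mem_nil, or_false] at he
    have h : ∀ r ∈ [27, 25, 28, 30], r < chevF4.nroots := by decide
    rcases he with rfl | rfl | rfl | rfl <;> exact h _ (by simp))]
  obtain ⟨t1, t2, t3, t4, _, _⟩ := tauF4
  obtain ⟨e1, e2, e3, e4, _, _⟩ := expF4
  simp only [List.map_cons, List.map_nil, twF4_tau, twF4_f, t1, t2, t3, t4, e1, e2, e3, e4, pow_one,
    Tbl.Good2.gW_cons, Tbl.Good2.gW_nil, mul_one, mul_assoc]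

/-- The product for the short orbit. -/
noncomputable abbrev ppF4 (α β : K) : GL chevF4.Idx K := xF4 33 α * xF4 24 β

lemma comm_33_24 (a b : K) : Commute (xF4 33 a) (xF4 24 b) := commF4 (by decide +kernel) a b

theorem sig_ppF4 (α β : K) : (twF4 hperf φ).sig (ppF4 α β) = ppF4 (φ β) (φ (α ^ 2)) := by
  obtain ⟨_, _, _, _, t5, t6⟩ := tauF4
  obtain ⟨_, _, _, _, e5, e6⟩ := expF4
  rw [ppF4, Tw.sig_mul _ (good3F4.toGood2.xN_mem _ _) (good3F4.toGood2.xN_mem _ _), Tw.sig_xN _ (show 33 < chevF4.nroots by decide),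
    Tw.sig_xN _ (show 24 < chevF4.nroots by decide), twF4_tau, twF4_f, twF4_f, t5, t6, e5, e6, pow_one]
  exact (comm_33_24 _ _).symm.eq

end Tw

end

/-- The orbit of a simple root. -/
def inJF4 (i : ℕ) : ℕ := [0, 1, 1, 0].getD i 0

/-- The letters of an orbit. -/
def wJF4 (j : ℕ) : List ℕ := [[0, 3], [1, 2, 1, 2]].getD j []

/-- The orbit data of type `F₄`. -/
noncomputable def orbF4 : TwOrb digF4.tbl chevF4 excF4.tau :=
  TwOrb.ofT2 good3F4.toGood2 2 inJF4 wJF4 (by decide +kernel) (by decide +kernel) (by decide +kernel)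
    (by
      have h : ∀ i, i < chevF4.rank → ∀ i', i' < chevF4.rank → inJF4 i = inJF4 i' → ∃ k, k < 2 ∧ excF4.tau^[k] (chevF4.simple i) = chevF4.simple i' := by decide +kernel
      intro i i' hi hi' e
      obtain ⟨k, _, hk⟩ := h i hi i' hi' e
      exact ⟨k, hk⟩)
    (by decide +kernel) (by
      intro j hj
      have hj' : j < 2 := hj
      interval_cases j <;> decide +kernel)

/-- The chain of `F₄`. -/
theorem chainF4' : chainOK digF4.tbl chevF4 orbF4 [] [0, 1, 0, 1, 0, 1, 0, 1] :=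
  chainB_spec good3F4.toGood2 orbF4 (by decide +kernel)

end Cfsg.Agent.Lib.Chev
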