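/-
The group ²F₄(q): normal forms, the fixed elements of the root groups of the orbits, the data for the BN-pair.
-/
import Cfsg.Agent.Lib.Tw.ReeF4

set_option autoImplicit false
set_option maxRecDepth 100000

namespace Cfsg.Agent.Lib.Chev

open Cfsg.Lie

section

variable {K : Type*} [Field K] [CharP K 2]

/-- The uniqueness of the normal form. -/
theorem ggF4_inj {α β γ δ α' β' γ' δ' : K} (h : ggF4 α β γ δ = ggF4 α' β' γ' δ') :
    α = α' ∧ β = β' ∧ γ = γ' ∧ δ = δ' := by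
  have nf : ∀ a b c d : K, ggF4 a b c d = good3F4.toGood2.gW [(25, b), (26, 0), (27, a), (28, c - a * b), (29, 0), (30, d - a ^ 2 * b)] := by
    intro a b c d
    have := (f4Rel (K := K)).gg_nf a b c d
    simp only [Tbl.Good2.gW_cons, Tbl.Good2.gW_nil, Tbl.Good2.xN_zero, one_mul, mul_one]
    refine this.trans ?_
    simp only [mul_assoc]
  rw [nf, nf] at h
  have h1 := congrArg Units.val h
  rw [good3F4.toGood2.gW_coe, good3F4.toGood2.gW_coe] at h1
  let t : ℕ → K := fun r => [β, 0, α, γ - α * β, 0, δ - α ^ 2 * β].getD (r - 25) 0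
  let t' : ℕ → K := fun r => [β', 0, α', γ' - α' * β', 0, δ' - α' ^ 2 * β'].getD (r - 25) 0
  have h2 := good3F4.toGood2.range_word_unique (F := K) (k := 25) 6 (by decide) (by decide) (t := t) (t' := t') h1
  have a0 : β = β' := h2 25 le_rfl (by norm_num)
  have a1 : α = α' := h2 27 (by norm_num) (by norm_num)
  have a2 : γ - α * β = γ' - α' * β' := h2 28 (by norm_num) (by norm_num)
  have a3 : δ - α ^ 2 * β = δ' - α' ^ 2 * β' := h2 30 (by norm_num) (by norm_num)
  subst a0 a1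
  exact ⟨rfl, rfl, sub_left_inj.1 a2, sub_left_inj.1 a3⟩

/-- The uniqueness of the product for the short orbit. -/
theorem ppF4_inj {α β α' β' : K} (h : ppF4 α β = ppF4 α' β') : α = α' ∧ β = β' := by
  have nf : ∀ a b : K, ppF4 a b = good3F4.toGood2.gW [(24, b), (25, 0), (26, 0), (27, 0), (28, 0), (29, 0), (30, 0), (31, 0), (32, 0), (33, a)] := by
    intro a b
    simp only [Tbl.Good2.gW_cons, Tbl.Good2.gW_nil, Tbl.Good2.xN_zero, one_mul, mul_one]
    exact (comm_33_24 a b).eq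
  rw [nf, nf] at h
  have h1 := congrArg Units.val h
  rw [good3F4.toGood2.gW_coe, good3F4.toGood2.gW_coe] at h1
  let t : ℕ → K := fun r => [β, 0, 0, 0, 0, 0, 0, 0, 0, α].getD (r - 24) 0
  let t' : ℕ → K := fun r => [β', 0, 0, 0, 0, 0, 0, 0, 0, α'].getD (r - 24) 0
  have h2 := good3F4.toGood2.range_word_unique (F := K) (k := 24) 10 (by decide) (by decide) (t := t) (t' := t') h1
  exact ⟨h2 33 (by norm_num) (by norm_num), h2 24 le_rfl (by norm_num)⟩

end

theorem subF4_table : ∀ j, j < 2 → ∀ r, r < 48 → 24 ≤ r → (∀ i, i < 4 → inJF4 i ≠ j → (chevF4.coroot.getD r #[]).getD i 0 = 0) →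
    r ∈ [[24, 33], [25, 27, 28, 30]].getD j [] := by
  intro j hj
  interval_cases j <;> decide +kernel

theorem subF4_table' : ∀ j, j < 2 → ∀ r ∈ [[24, 33], [25, 27, 28, 30]].getD j [], r < 48 ∧ 24 ≤ r ∧ (∀ i, i < 4 → inJF4 i ≠ j → (chevF4.coroot.getD r #[]).getD i 0 = 0) := by
  intro j hj
  interval_cases j <;> decide +kernel

lemma subF4_of {j r : ℕ} (hj : j < 2) (h : chevF4.IsPosRoot r ∧ chevF4.InRootSub (orbF4.J j) r) :
    r ∈ [[24, 33], [25, 27, 28, 30]].getD j [] := by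
  have h1 : r < 48 := h.1.1
  have h2 : 24 ≤ r := (good3F4.toGood2.isPos_iff h.1.1).1 h.1
  exact subF4_table j hj r h1 h2 fun i hi hne => h.2.2 i hi hne

lemma subF4_mem {j r : ℕ} (hj : j < 2) (h : r ∈ [[24, 33], [25, 27, 28, 30]].getD j []) :
    chevF4.IsPosRoot r ∧ chevF4.InRootSub (orbF4.J j) r := by
  obtain ⟨h1, h2, h3⟩ := subF4_table' j hj r h
  exact ⟨(good3F4.toGood2.isPos_iff h1).2 h2, h1, fun i hi hne => h3 i hi hne⟩

section

variable {K : Type*} [Field K]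

lemma xF4_mem_XJ {j r : ℕ} (hj : j < 2) (h : r ∈ [[24, 33], [25, 27, 28, 30]].getD j []) (t : K) :
    xF4 r t ∈ XJ chevF4 K (orbF4.J j) :=
  Subgroup.subset_closure ⟨r, t, subF4_mem hj h, good3F4.toGood2.xN_coe r t⟩

variable [CharP K 2]

omit [CharP K 2] in
lemma xF4_neg {r : ℕ} (hr : r < chevF4.nroots) (t : K) : xF4 r (-t) = (xF4 r t)⁻¹ := by
  refine eq_inv_of_mul_eq_one_left ?_
  show good3F4.toGood2.xN r (-t) * good3F4.toGood2.xN r t = 1
  rw [good3F4.toGood2.xN_add hr, neg_add_cancel, good3F4.toGood2.xN_zero]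

omit [CharP K 2] in
lemma ppF4_zero : ppF4 (0 : K) 0 = 1 := by
  show good3F4.toGood2.xN 33 0 * good3F4.toGood2.xN 24 0 = 1
  rw [good3F4.toGood2.xN_zero, good3F4.toGood2.xN_zero, one_mul]

omit [CharP K 2] in
lemma ppF4_mul_eq (α β α' β' : K) (h : xF4 24 β * xF4 33 α' = xF4 33 α' * xF4 24 β) : ppF4 α β * ppF4 α' β' = ppF4 (α + α') (β + β') := by
  have e1 : xF4 33 (α + α') = xF4 33 α * xF4 33 α' := (good3F4.toGood2.xN_add (show 33 < chevF4.nroots by decide) α α').symm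
  have e2 : xF4 24 (β + β') = xF4 24 β * xF4 24 β' := (good3F4.toGood2.xN_add (show 24 < chevF4.nroots by decide) β β').symm
  rw [ppF4, ppF4, ppF4, e1, e2]
  calc xF4 33 α * xF4 24 β * (xF4 33 α' * xF4 24 β') = xF4 33 α * (xF4 24 β * xF4 33 α') * xF4 24 β' := by group
    _ = xF4 33 α * (xF4 33 α' * xF4 24 β) * xF4 24 β' := by rw [h]
    _ = _ := by group

/-- The group of the short orbit. -/
def ppSub : Subgroup (GL chevF4.Idx K) where
  carrier := {g | ∃ α β : K, g = ppF4 α β}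
  one_mem' := ⟨0, 0, ppF4_zero.symm⟩
  mul_mem' := by
    rintro a b ⟨α, β, rfl⟩ ⟨α', β', rfl⟩
    exact ⟨α + α', β + β', ppF4_mul_eq α β α' β' (comm_33_24 α' β).symm.eq⟩
  inv_mem' := by
    rintro a ⟨α, β, rfl⟩
    refine ⟨-α, -β, ?_⟩
    rw [ppF4, ppF4, mul_inv_rev, xF4_neg (show 33 < chevF4.nroots by decide), xF4_neg (show 24 < chevF4.nroots by decide)]
    exact ((comm_33_24 (K := K) α β).inv_inv).eq.symm

lemma XJ_F4_0 : XJ chevF4 K (orbF4.J 0) = ppSub (K := K) := by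
  apply le_antisymm
  · refine (Subgroup.closure_le _).2 ?_
    rintro g ⟨r, t, hr, hg⟩
    have h := subF4_of (show 0 < 2 by decide) hr
    have e : g = xF4 r t := by
      show g = good3F4.toGood2.xN r t
      rw [good3F4.toGood2.eq_xU hr.1.1 hg, good3F4.toGood2.xN_of_lt hr.1.1]
    simp only [List.getD_cons_zero, List.mem_cons, List.not_mem_nil, or_false] at h
    rcases h with rfl | rfl
    · refine ⟨0, t, ?_⟩
      rw [e, ppF4]
      show _ = good3F4.toGood2.xN 33 0 * _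
      rw [good3F4.toGood2.xN_zero, one_mul]
    · refine ⟨t, 0, ?_⟩
      rw [e, ppF4]
      show _ = _ * good3F4.toGood2.xN 24 0
      rw [good3F4.toGood2.xN_zero, mul_one]
  · rintro g ⟨α, β, rfl⟩
    exact Subgroup.mul_mem _ (xF4_mem_XJ (show 0 < 2 by decide) (by simp) α) (xF4_mem_XJ (show 0 < 2 by decide) (by simp) β)

lemma XJ_F4_1 : XJ chevF4 K (orbF4.J 1) = (f4Rel (K := K)).ggSub := by
  apply le_antisymm
  · refine (Subgroup.closure_le _).2 ?_
    rintro g ⟨r, t, hr, hg⟩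
    have h := subF4_of (show 1 < 2 by decide) hr
    have e : g = xF4 r t := by
      show g = good3F4.toGood2.xN r t
      rw [good3F4.toGood2.eq_xU hr.1.1 hg, good3F4.toGood2.xN_of_lt hr.1.1]
    have h' : r ∈ [25, 27, 28, 30] := h
    simp only [List.mem_cons, List.not_mem_nil, or_false] at h'
    rw [e]
    rcases h' with rfl | rfl | rfl | rfl
    · exact ⟨0, t, 0, 0, ((f4Rel (K := K)).gg_b t).symm⟩
    · exact ⟨t, 0, 0, 0, ((f4Rel (K := K)).gg_a t).symm⟩
    · exact ⟨0, 0, t, 0, ((f4Rel (K := K)).gg_c t).symm⟩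
    · exact ⟨0, 0, 0, t, ((f4Rel (K := K)).gg_d t).symm⟩
  · rintro g ⟨α, β, γ, δ, rfl⟩
    have h : ∀ r ∈ [25, 27, 28, 30], ∀ t : K, xF4 r t ∈ XJ chevF4 K (orbF4.J 1) :=
      fun r hr t => xF4_mem_XJ (show 1 < 2 by decide) hr t
    unfold B2Rel.gg
    exact Subgroup.mul_mem _ (Subgroup.mul_mem _ (Subgroup.mul_mem _ (h _ (by simp) _) (h _ (by simp) _)) (h _ (by simp) _)) (h _ (by simp) _)

/-- The fixed elements of the group of the long orbit. -/
noncomputable def suzU (φ : K ≃+* K) (t u : K) : GL chevF4.Idx K :=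
  ggF4 (φ t) t (φ t * t + u) (φ (u ^ 2))

/-- The fixed elements of the group of the short orbit. -/
noncomputable def parU (φ : K ≃+* K) (t : K) : GL chevF4.Idx K := ppF4 (φ t) t

section Tw

variable (hperf : ∀ x : K, ∃ y : K, y ^ 2 = x) (φ : K ≃+* K)

omit [CharP K 2] in
lemma suzU_mem_group (t u : K) : suzU φ t u ∈ chevF4.group K := by
  unfold suzU
  rw [ggF4_eq_gW]
  exact good3F4.toGood2.gW_mem _

lemma add_sq2 (a b : K) : (a + b) ^ 2 = a ^ 2 + b ^ 2 := add_pow_char a b 2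

lemma add_self2 (a : K) : a + a = 0 := CharTwo.add_self_eq_zero a

theorem suzU_sig (hφ : ∀ x, φ (φ (x ^ 2)) = x) (t u : K) : (twF4 hperf φ).sig (suzU φ t u) = suzU φ t u := by
  have h1 : ∀ x, φ ((φ x) ^ 2) = x := fun x => by
    rw [← map_pow]
    exact hφ x
  unfold suzU
  rw [sig_ggF4, h1 t, hφ u]
  congr 1
  rw [add_sq2, mul_pow, map_add, map_mul, h1, map_pow φ t 2]
  rw [← add_assoc, mul_comm t, add_self2, zero_add]

end Tw

end

end Cfsg.Agent.Lib.Chev
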