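/-
The group ²F₄(q): the fixed elements of the root groups of the orbits, the representatives and the data for the BN-pair.
-/
import Cfsg.Agent.Lib.Tw.ReeF4b

set_option autoImplicit false
set_option maxRecDepth 100000

namespace Cfsg.Agent.Lib.Chev

open Cfsg.Lie

section

variable {K : Type*} [Field K]

lemma nE_eq_gW' {D : ChevalleyDatum} {T : Tbl} (hG : T.Good2 D) {F : Type*} [Field F] {i : ℕ} (hi : i < D.rank) :
    hG.nE (F := F) i = hG.gW [(D.simple i, 1), (D.neg (D.simple i), -1), (D.simple i, 1)] := by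
  rw [hG.nE_eq hi]
  apply Units.ext
  rw [hG.gW_coe, Tbl.Good.nU_coe]
  simp [ChevalleyDatum.nMat, ChevalleyDatum.nWord, ChevalleyDatum.neg]

lemma nE0_F4 : good3F4.toGood2.nE (F := K) 0 = good3F4.toGood2.gW [(33, 1), (14, -1), (33, 1)] := by
  rw [nE_eq_gW' _ (show 0 < chevF4.rank by decide), show chevF4.simple 0 = 33 by decide, show chevF4.neg 33 = 14 by decide]

lemma nE1_F4 : good3F4.toGood2.nE (F := K) 1 = good3F4.toGood2.gW [(27, 1), (20, -1), (27, 1)] := by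
  rw [nE_eq_gW' _ (show 1 < chevF4.rank by decide), show chevF4.simple 1 = 27 by decide, show chevF4.neg 27 = 20 by decide]

lemma nE2_F4 : good3F4.toGood2.nE (F := K) 2 = good3F4.toGood2.gW [(25, 1), (22, -1), (25, 1)] := by
  rw [nE_eq_gW' _ (show 2 < chevF4.rank by decide), show chevF4.simple 2 = 25 by decide, show chevF4.neg 25 = 22 by decide]

lemma nE3_F4 : good3F4.toGood2.nE (F := K) 3 = good3F4.toGood2.gW [(24, 1), (23, -1), (24, 1)] := by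
  rw [nE_eq_gW' _ (show 3 < chevF4.rank by decide), show chevF4.simple 3 = 24 by decide, show chevF4.neg 24 = 23 by decide]

/-- The representative for the short orbit. -/
noncomputable abbrev n0F4 : GL chevF4.Idx K := good3F4.toGood2.nProd [0, 3]

/-- The representative for the long orbit. -/
noncomputable abbrev n1F4 : GL chevF4.Idx K := good3F4.toGood2.nProd [1, 2, 1, 2]

section Char

variable [CharP K 2]

lemma n0F4_eq : n0F4 (K := K) = (xF4 33 1 * xF4 24 1) * (xF4 14 1 * xF4 23 1) * (xF4 33 1 * xF4 24 1) := by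
  have e := good3F4.toGood2.wEqN (F := K) (p := 2)
    (w := [(33, mP 1 0 0), (14, mP (-1) 0 0), (33, mP 1 0 0), (24, mP 1 0 0), (23, mP (-1) 0 0), (24, mP 1 0 0)])
    (w' := [(33, mP 1 0 0), (24, mP 1 0 0), (14, mP 1 0 0), (23, mP 1 0 0), (33, mP 1 0 0), (24, mP 1 0 0)])
    (by decide +kernel) 0 0
  simp only [Tbl.Good2.nProd_cons, Tbl.Good2.nProd_nil]
  rw [nE0_F4, nE3_F4]
  simpa [mP_val, mul_assoc] using e

lemma n1F4_eq : n1F4 (K := K) = (xF4 27 1 * xF4 25 1 * xF4 28 1) * (xF4 19 1 * xF4 17 1) * (xF4 27 1 * xF4 25 1 * xF4 30 1) := by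
  have e := good3F4.toGood2.wEqN (F := K) (p := 2)
    (w := [(27, mP 1 0 0), (20, mP (-1) 0 0), (27, mP 1 0 0), (25, mP 1 0 0), (22, mP (-1) 0 0), (25, mP 1 0 0),
      (27, mP 1 0 0), (20, mP (-1) 0 0), (27, mP 1 0 0), (25, mP 1 0 0), (22, mP (-1) 0 0), (25, mP 1 0 0)])
    (w' := [(27, mP 1 0 0), (25, mP 1 0 0), (28, mP 1 0 0), (19, mP 1 0 0), (17, mP 1 0 0), (27, mP 1 0 0), (25, mP 1 0 0), (30, mP 1 0 0)])
    (by decide +kernel) 0 0
  simp only [Tbl.Good2.nProd_cons, Tbl.Good2.nProd_nil]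
  rw [nE1_F4, nE2_F4]
  simpa [mP_val, mul_assoc] using e

lemma n0F4_mul_x33 (c : K) : n0F4 * xF4 33 c = xF4 14 c * n0F4 := by
  have e := good3F4.toGood2.wEqN (F := K) (p := 2)
    (w := [(33, mP 1 0 0), (24, mP 1 0 0), (14, mP 1 0 0), (23, mP 1 0 0), (33, mP 1 0 0), (24, mP 1 0 0), (33, mP 1 1 0)])
    (w' := [(14, mP 1 1 0), (33, mP 1 0 0), (24, mP 1 0 0), (14, mP 1 0 0), (23, mP 1 0 0), (33, mP 1 0 0), (24, mP 1 0 0)])
    (by decide +kernel) c 0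
  rw [n0F4_eq]
  simpa [mP_val, mul_assoc] using e

lemma n0F4_mul_x24 (c : K) : n0F4 * xF4 24 c = xF4 23 c * n0F4 := by
  have e := good3F4.toGood2.wEqN (F := K) (p := 2)
    (w := [(33, mP 1 0 0), (24, mP 1 0 0), (14, mP 1 0 0), (23, mP 1 0 0), (33, mP 1 0 0), (24, mP 1 0 0), (24, mP 1 1 0)])
    (w' := [(23, mP 1 1 0), (33, mP 1 0 0), (24, mP 1 0 0), (14, mP 1 0 0), (23, mP 1 0 0), (33, mP 1 0 0), (24, mP 1 0 0)])
    (by decide +kernel) c 0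
  rw [n0F4_eq]
  simpa [mP_val, mul_assoc] using e

lemma n1F4_mul_x27 (c : K) : n1F4 * xF4 27 c = xF4 20 c * n1F4 := by
  have e := good3F4.toGood2.wEqN (F := K) (p := 2)
    (w := [(27, mP 1 0 0), (25, mP 1 0 0), (28, mP 1 0 0), (19, mP 1 0 0), (17, mP 1 0 0), (27, mP 1 0 0), (25, mP 1 0 0), (30, mP 1 0 0), (27, mP 1 1 0)])
    (w' := [(20, mP 1 1 0), (27, mP 1 0 0), (25, mP 1 0 0), (28, mP 1 0 0), (19, mP 1 0 0), (17, mP 1 0 0), (27, mP 1 0 0), (25, mP 1 0 0), (30, mP 1 0 0)])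
    (by decide +kernel) c 0
  rw [n1F4_eq]
  simpa [mP_val, mul_assoc] using e

lemma n1F4_mul_x25 (c : K) : n1F4 * xF4 25 c = xF4 22 c * n1F4 := by
  have e := good3F4.toGood2.wEqN (F := K) (p := 2)
    (w := [(27, mP 1 0 0), (25, mP 1 0 0), (28, mP 1 0 0), (19, mP 1 0 0), (17, mP 1 0 0), (27, mP 1 0 0), (25, mP 1 0 0), (30, mP 1 0 0), (25, mP 1 1 0)])
    (w' := [(22, mP 1 1 0), (27, mP 1 0 0), (25, mP 1 0 0), (28, mP 1 0 0), (19, mP 1 0 0), (17, mP 1 0 0), (27, mP 1 0 0), (25, mP 1 0 0), (30, mP 1 0 0)])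
    (by decide +kernel) c 0
  rw [n1F4_eq]
  simpa [mP_val, mul_assoc] using e

lemma n1F4_mul_x28 (c : K) : n1F4 * xF4 28 c = xF4 19 c * n1F4 := by
  have e := good3F4.toGood2.wEqN (F := K) (p := 2)
    (w := [(27, mP 1 0 0), (25, mP 1 0 0), (28, mP 1 0 0), (19, mP 1 0 0), (17, mP 1 0 0), (27, mP 1 0 0), (25, mP 1 0 0), (30, mP 1 0 0), (28, mP 1 1 0)])
    (w' := [(19, mP 1 1 0), (27, mP 1 0 0), (25, mP 1 0 0), (28, mP 1 0 0), (19, mP 1 0 0), (17, mP 1 0 0), (27, mP 1 0 0), (25, mP 1 0 0), (30, mP 1 0 0)])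
    (by decide +kernel) c 0
  rw [n1F4_eq]
  simpa [mP_val, mul_assoc] using e

lemma n1F4_mul_x30 (c : K) : n1F4 * xF4 30 c = xF4 17 c * n1F4 := by
  have e := good3F4.toGood2.wEqN (F := K) (p := 2)
    (w := [(27, mP 1 0 0), (25, mP 1 0 0), (28, mP 1 0 0), (19, mP 1 0 0), (17, mP 1 0 0), (27, mP 1 0 0), (25, mP 1 0 0), (30, mP 1 0 0), (30, mP 1 1 0)])
    (w' := [(17, mP 1 1 0), (27, mP 1 0 0), (25, mP 1 0 0), (28, mP 1 0 0), (19, mP 1 0 0), (17, mP 1 0 0), (27, mP 1 0 0), (25, mP 1 0 0), (30, mP 1 0 0)])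
    (by decide +kernel) c 0
  rw [n1F4_eq]
  simpa [mP_val, mul_assoc] using e

/-- The image of the normal form under the representative. -/
lemma n1F4_mul_gg (α β γ δ : K) : n1F4 * ggF4 α β γ δ = good3F4.toGood2.gW [(20, α), (22, β), (19, γ), (17, δ)] * n1F4 := by
  rw [ggF4_eq_gW]
  simp only [Tbl.Good2.gW_cons, Tbl.Good2.gW_nil, mul_one]
  rw [← mul_assoc, n1F4_mul_x27, mul_assoc, ← mul_assoc n1F4, n1F4_mul_x25, mul_assoc, ← mul_assoc n1F4, n1F4_mul_x28, mul_assoc, n1F4_mul_x30]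
  simp only [mul_assoc]

lemma n0F4_mul_pp (α β : K) : n0F4 * ppF4 α β = good3F4.toGood2.gW [(14, α), (23, β)] * n0F4 := by
  rw [ppF4, ← mul_assoc, n0F4_mul_x33, mul_assoc, n0F4_mul_x24]
  simp only [Tbl.Good2.gW_cons, Tbl.Good2.gW_nil, mul_one, mul_assoc]

variable (hperf : ∀ x : K, ∃ y : K, y ^ 2 = x) (φ : K ≃+* K)

theorem suzU_fix (hφ : ∀ x, φ (φ (x ^ 2)) = x) (t u : K) : suzU φ t u ∈ (twF4 hperf φ).fix :=
  ⟨suzU_mem_group φ t u, suzU_sig hperf φ hφ t u⟩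

theorem parU_fix (hφ : ∀ x, φ (φ (x ^ 2)) = x) (t : K) : parU φ t ∈ (twF4 hperf φ).fix := by
  refine ⟨Subgroup.mul_mem _ (good3F4.toGood2.xN_mem _ _) (good3F4.toGood2.xN_mem _ _), ?_⟩
  unfold parU
  rw [sig_ppF4, ← map_pow, hφ]

theorem suzU_inj {t u t' u' : K} (h : suzU φ t u = suzU φ t' u') : t = t' ∧ u = u' := by
  obtain ⟨_, a, b, _⟩ := ggF4_inj h
  subst a
  exact ⟨rfl, add_left_cancel b⟩

theorem parU_inj {t t' : K} (h : parU φ t = parU φ t') : t = t' := (ppF4_inj h).2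

/-- The fixed elements of the group of the long orbit. -/
theorem mem_X1_fix_iff (hφ : ∀ x, φ (φ (x ^ 2)) = x) {g : GL chevF4.Idx K} :
    g ∈ XJ chevF4 K (orbF4.J 1) ⊓ (twF4 hperf φ).fix ↔ ∃ t u, g = suzU φ t u := by
  constructor
  · rintro ⟨hU, _, hf⟩
    have hU' : g ∈ (f4Rel (K := K)).ggSub := (XJ_F4_1 (K := K)).le hU
    obtain ⟨α, β, γ, δ, rfl⟩ := hU'
    rw [sig_ggF4] at hf
    obtain ⟨a1, a2, a3, a4⟩ := ggF4_inj hf
    have e0 : α = φ β := a1.symm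
    subst e0
    have h1 : ∀ x, φ ((φ x) ^ 2) = x := fun x => by
      rw [← map_pow]
      exact hφ x
    rw [h1] at a3
    refine ⟨β, φ δ, ?_⟩
    unfold suzU
    rw [← a3, h1]
  · rintro ⟨t, u, rfl⟩
    refine ⟨?_, suzU_fix hperf φ hφ t u⟩
    exact (XJ_F4_1 (K := K)).ge ⟨_, _, _, _, rfl⟩

/-- The fixed elements of the group of the short orbit. -/
theorem mem_X0_fix_iff (hφ : ∀ x, φ (φ (x ^ 2)) = x) {g : GL chevF4.Idx K} :
    g ∈ XJ chevF4 K (orbF4.J 0) ⊓ (twF4 hperf φ).fix ↔ ∃ t, g = parU φ t := by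
  constructor
  · rintro ⟨hU, _, hf⟩
    have hU' : g ∈ ppSub (K := K) := (XJ_F4_0 (K := K)).le hU
    obtain ⟨α, β, rfl⟩ := hU'
    rw [sig_ppF4] at hf
    obtain ⟨a1, _⟩ := ppF4_inj hf
    refine ⟨β, ?_⟩
    unfold parU
    rw [a1]
  · rintro ⟨t, rfl⟩
    exact ⟨(XJ_F4_0 (K := K)).ge ⟨_, _, rfl⟩, parU_fix hperf φ hφ t⟩

end Char

end

end Cfsg.Agent.Lib.Chev
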