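/-
The group ²F₄(q): the conjugate words, the representatives are fixed, the data for the BN-pair.
-/
import Cfsg.Agent.Lib.Tw.ReeF4c
import Cfsg.Agent.Lib.Tw.HChar2

set_option autoImplicit false
set_option maxRecDepth 100000

namespace Cfsg.Agent.Lib.Chev

open Cfsg.Lie

section

variable {K : Type*} [Field K] [CharP K 2] (φ : K ≃+* K)

/-- The conjugate words of the long orbit. -/
noncomputable def suzV (t u : K) : GL chevF4.Idx K := n1F4 * suzU φ t u * n1F4⁻¹

/-- The conjugate words of the short orbit. -/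
noncomputable def parV (t : K) : GL chevF4.Idx K := n0F4 * parU φ t * n0F4⁻¹

lemma suzV_eq (t u : K) : suzV φ t u = good3F4.toGood2.gW [(20, φ t), (22, t), (19, φ t * t + u), (17, φ (u ^ 2))] := by
  unfold suzV suzU
  rw [n1F4_mul_gg, mul_inv_cancel_right]

lemma parV_eq (t : K) : parV φ t = good3F4.toGood2.gW [(14, φ t), (23, t)] := by
  unfold parV parU
  rw [n0F4_mul_pp, mul_inv_cancel_right]

lemma n0F4_words : n0F4 (K := K) = parU φ 1 * parV φ 1 * parU φ 1 := by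
  rw [parV_eq, n0F4_eq]
  unfold parU
  simp only [map_one, Tbl.Good2.gW_cons, Tbl.Good2.gW_nil, mul_one]

lemma n1F4_words : n1F4 (K := K) = suzU φ 1 0 * suzV φ 0 1 * suzU φ 1 1 := by
  rw [suzV_eq, n1F4_eq]
  unfold suzU
  rw [ggF4_eq_gW, ggF4_eq_gW]
  simp only [map_one, map_zero, add_zero, mul_one, mul_zero, zero_add, one_pow, ne_eq, OfNat.ofNat_ne_zero, not_false_eq_true,
    zero_pow, Tbl.Good2.gW_cons, Tbl.Good2.gW_nil, Tbl.Good2.xN_zero, one_mul, add_self2]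
  simp only [mul_assoc]

end

lemma neg_orb_F4 : excF4.tau 14 = 23 ∧ excF4.tau 23 = 14 ∧ excF4.tau 19 = 17 ∧ excF4.tau 17 = 19 ∧
    excF4.exp 14 = 2 ∧ excF4.exp 23 = 1 ∧ excF4.exp 19 = 2 ∧ excF4.exp 17 = 1 := by
  decide +kernel

section

variable {K : Type*} [Field K] [CharP K 2] (hperf : ∀ x : K, ∃ y : K, y ^ 2 = x) (φ : K ≃+* K)

/-- The representative of the short orbit is fixed. -/
theorem n0F4_fix (hφ : ∀ x, φ (φ (x ^ 2)) = x) : n0F4 ∈ (twF4 hperf φ).fix := by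
  have hY : parV φ (1 : K) ∈ (twF4 hperf φ).fix := by
    rw [parV_eq]
    simp only [Tbl.Good2.gW_cons, Tbl.Good2.gW_nil, mul_one]
    refine ⟨Subgroup.mul_mem _ (good3F4.toGood2.xN_mem _ _) (good3F4.toGood2.xN_mem _ _), ?_⟩
    obtain ⟨t1, t2, _, _, e1, e2, _, _⟩ := neg_orb_F4
    rw [Tw.sig_mul _ (good3F4.toGood2.xN_mem _ _) (good3F4.toGood2.xN_mem _ _), Tw.sig_xN _ (show 14 < chevF4.nroots by decide),
      Tw.sig_xN _ (show 23 < chevF4.nroots by decide), twF4_tau, twF4_f, twF4_f, t1, t2, e1, e2]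
    simp only [map_one, one_pow, pow_one]
    exact (commF4 (by decide +kernel) _ _ : Commute (xF4 23 (1 : K)) (xF4 14 1)).eq
  rw [n0F4_words φ]
  exact Subgroup.mul_mem _ (Subgroup.mul_mem _ (parU_fix hperf φ hφ 1) hY) (parU_fix hperf φ hφ 1)

/-- The representative of the long orbit is fixed. -/
theorem n1F4_fix (hφ : ∀ x, φ (φ (x ^ 2)) = x) : n1F4 ∈ (twF4 hperf φ).fix := by
  have hY : suzV φ (0 : K) 1 ∈ (twF4 hperf φ).fix := by
    rw [suzV_eq]
    simp only [map_zero, zero_mul, zero_add, one_pow, map_one, Tbl.Good2.gW_cons, Tbl.Good2.gW_nil, Tbl.Good2.xN_zero, one_mul, mul_one]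
    refine ⟨Subgroup.mul_mem _ (good3F4.toGood2.xN_mem _ _) (good3F4.toGood2.xN_mem _ _), ?_⟩
    obtain ⟨_, _, t1, t2, _, _, e1, e2⟩ := neg_orb_F4
    rw [Tw.sig_mul _ (good3F4.toGood2.xN_mem _ _) (good3F4.toGood2.xN_mem _ _), Tw.sig_xN _ (show 19 < chevF4.nroots by decide),
      Tw.sig_xN _ (show 17 < chevF4.nroots by decide), twF4_tau, twF4_f, twF4_f, t1, t2, e1, e2]
    simp only [map_one, one_pow, pow_one]
    exact (commF4 (by decide +kernel) _ _ : Commute (xF4 17 (1 : K)) (xF4 19 1)).eq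
  rw [n1F4_words φ]
  exact Subgroup.mul_mem _ (Subgroup.mul_mem _ (suzU_fix hperf φ hφ 1 0) hY) (suzU_fix hperf φ hφ 1 1)

theorem suzV_fix (hφ : ∀ x, φ (φ (x ^ 2)) = x) (t u : K) : suzV φ t u ∈ (twF4 hperf φ).fix :=
  Subgroup.mul_mem _ (Subgroup.mul_mem _ (n1F4_fix hperf φ hφ) (suzU_fix hperf φ hφ t u)) (Subgroup.inv_mem _ (n1F4_fix hperf φ hφ))

theorem parV_fix (hφ : ∀ x, φ (φ (x ^ 2)) = x) (t : K) : parV φ t ∈ (twF4 hperf φ).fix :=
  Subgroup.mul_mem _ (Subgroup.mul_mem _ (n0F4_fix hperf φ hφ) (parU_fix hperf φ hφ t)) (Subgroup.inv_mem _ (n0F4_fix hperf φ hφ))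

omit [CharP K 2] in
lemma suzU_zero : suzU φ (0 : K) 0 = 1 := by
  unfold suzU
  rw [ggF4_eq_gW]
  simp [Tbl.Good2.xN_zero]

omit [CharP K 2] in
lemma parU_zero : parU φ (0 : K) = 1 := by
  unfold parU
  rw [map_zero]
  exact ppF4_zero

/-- The data for the BN-pair of `²F₄`. -/
noncomputable def twnF4 (hφ : ∀ x, φ (φ (x ^ 2)) = x) : TwN (twF4 hperf φ) orbF4 where
  good3 := good3F4
  n j := good3F4.toGood2.nProd (wJF4 j)
  mem j hj := good3F4.toGood2.nProd_mem_N (by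
    have hj' : j < 2 := hj
    interval_cases j <;> decide)
  fix j hj := by
    have hj' : j < 2 := hj
    interval_cases j
    · exact n0F4_fix hperf φ hφ
    · exact n1F4_fix hperf φ hφ
  perm j hj r := by
    exact good3F4.toGood2.permN_nProd (by
      have hj' : j < 2 := hj
      interval_cases j <;> decide) r
  nontriv j hj := by
    have hj' : j < 2 := hj
    interval_cases j
    · refine ⟨parU φ 1, (mem_X0_fix_iff hperf φ hφ).2 ⟨1, rfl⟩ |>.1, parU_fix hperf φ hφ 1, fun h => ?_⟩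
      have := parU_inj φ (h.trans (parU_zero φ).symm)
      exact one_ne_zero this
    · refine ⟨suzU φ 1 0, (mem_X1_fix_iff hperf φ hφ).2 ⟨1, 0, rfl⟩ |>.1, suzU_fix hperf φ hφ 1 0, fun h => ?_⟩
      have := (suzU_inj φ (h.trans (suzU_zero φ).symm)).1
      exact one_ne_zero this

end

end Cfsg.Agent.Lib.Chev
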