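/-
The group ²F₄(q): the diagonal subgroup, the fixed points of `H`, the words.
-/
import Cfsg.Agent.Lib.Tw.ReeF4d
import Cfsg.Prelude.Def_LieTwisted

set_option autoImplicit false
set_option maxRecDepth 100000

namespace Cfsg.Agent.Lib.Chev

open Cfsg.Lie

section

variable {K : Type*} [Field K]

/-- The value on a root. -/
noncomputable abbrev chiF4 (r : ℕ) (hr : r < chevF4.nroots) : ↥(chevF4.diagonalSubgroup K) →* Kˣ := good3F4.toGood2.chi hr

/-- The value on the short root of the short orbit. -/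
noncomputable abbrev chP : ↥(chevF4.diagonalSubgroup K) →* Kˣ := chiF4 33 (by decide)
/-- The value on the long root of the short orbit. -/
noncomputable abbrev chQ : ↥(chevF4.diagonalSubgroup K) →* Kˣ := chiF4 24 (by decide)
/-- The value on the root `a`. -/
noncomputable abbrev chA : ↥(chevF4.diagonalSubgroup K) →* Kˣ := chiF4 27 (by decide)
/-- The value on the root `b`. -/
noncomputable abbrev chB : ↥(chevF4.diagonalSubgroup K) →* Kˣ := chiF4 25 (by decide)
/-- The value on the root `a+b`. -/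
noncomputable abbrev chC : ↥(chevF4.diagonalSubgroup K) →* Kˣ := chiF4 28 (by decide)
/-- The value on the root `2a+b`. -/
noncomputable abbrev chD : ↥(chevF4.diagonalSubgroup K) →* Kˣ := chiF4 30 (by decide)

lemma chi_neg' {r r' : ℕ} (hr : r < chevF4.nroots) (hr' : r' < chevF4.nroots) (e : chevF4.neg r = r') (z : ↥(chevF4.diagonalSubgroup K)) :
    chiF4 r' hr' z = (chiF4 r hr z)⁻¹ := by
  subst e
  exact good3F4.toGood2.chi_neg z hr hr'

lemma chC_eq (z : ↥(chevF4.diagonalSubgroup K)) : chC z = chA z * chB z := by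
  have h := good3F4.toGood2.chi_lin z (r := 27) (s := 25) (t := 28) (by decide) (by decide) (by decide) 1 1 (by
    intro i hi
    have hi' : i < 4 := hi
    interval_cases i <;> decide +kernel)
  simpa using h

lemma chD_eq (z : ↥(chevF4.diagonalSubgroup K)) : chD z = chA z ^ 2 * chB z := by
  have h := good3F4.toGood2.chi_lin z (r := 27) (s := 25) (t := 30) (by decide) (by decide) (by decide) 2 1 (by
    intro i hi
    have hi' : i < 4 := hi
    interval_cases i <;> decide +kernel)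
  simpa using h

lemma chi37_eq (z : ↥(chevF4.diagonalSubgroup K)) : chiF4 37 (by decide) z = chP z * chD z := by
  have h := good3F4.toGood2.chi_lin z (r := 33) (s := 30) (t := 37) (by decide) (by decide) (by decide) 1 1 (by
    intro i hi
    have hi' : i < 4 := hi
    interval_cases i <;> decide +kernel)
  simpa using h

lemma chi34_eq (z : ↥(chevF4.diagonalSubgroup K)) : chiF4 34 (by decide) z = chP z * chA z := by
  have h := good3F4.toGood2.chi_lin z (r := 33) (s := 27) (t := 34) (by decide) (by decide) (by decide) 1 1 (by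
    intro i hi
    have hi' : i < 4 := hi
    interval_cases i <;> decide +kernel)
  simpa using h

/-- The inverse of the Cartan matrix of type `F₄`. -/
def cartInvF4 (i j : Fin chevF4.rank) : ℤ :=
  ([[2, 3, 2, 1], [3, 6, 4, 2], [4, 8, 6, 3], [2, 4, 3, 2]].getD i.val []).getD j.val 0

theorem cartInvF4_spec : ∀ i j : Fin chevF4.rank,
    ∑ k : Fin chevF4.rank, cartA digF4.tbl chevF4.rank i k * cartInvF4 k j = if i = j then 1 else 0 := by
  decide +kernel

/-- An element of `H` with prescribed values on the simple roots. -/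
theorem exists_z_F4 (a b c d : Kˣ) :
    ∃ z : ↥(chevF4.diagonalSubgroup K), chP z = a ∧ chA z = b ∧ chB z = c ∧ chQ z = d := by
  obtain ⟨z, hz⟩ := good3F4.toGood2.exists_chi_simple (F := K) cartInvF4_spec (fun j => ([a, b, c, d].getD j.val 1))
  refine ⟨z, ?_, ?_, ?_, ?_⟩
  · exact hz ⟨0, by decide⟩
  · exact hz ⟨1, by decide⟩
  · exact hz ⟨2, by decide⟩
  · exact hz ⟨3, by decide⟩

lemma conj_mul (z a b : GL chevF4.Idx K) : z * (a * b) * z⁻¹ = (z * a * z⁻¹) * (z * b * z⁻¹) := by group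

/-- The conjugates of a root element. -/
lemma conj_xF4 (z : ↥(chevF4.diagonalSubgroup K)) {r : ℕ} (hr : r < chevF4.nroots) (t : K) :
    (z : GL chevF4.Idx K) * xF4 r t * (z : GL chevF4.Idx K)⁻¹ = xF4 r ((chiF4 r hr z : K) * t) :=
  good3F4.toGood2.chi_xN hr z t

/-- The conjugates of the normal form. -/
lemma conj_ggF4 (z : ↥(chevF4.diagonalSubgroup K)) (α β γ δ : K) :
    (z : GL chevF4.Idx K) * ggF4 α β γ δ * (z : GL chevF4.Idx K)⁻¹ =
      ggF4 (chA z * α) (chB z * β) (chC z * γ) (chD z * δ) := by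
  show (z : GL chevF4.Idx K) * (xF4 27 α * xF4 25 β * xF4 28 γ * xF4 30 δ) * (z : GL chevF4.Idx K)⁻¹ = xF4 27 _ * xF4 25 _ * xF4 28 _ * xF4 30 _
  rw [conj_mul, conj_mul, conj_mul, conj_xF4 z (r := 27) (by decide), conj_xF4 z (r := 25) (by decide),
    conj_xF4 z (r := 28) (by decide), conj_xF4 z (r := 30) (by decide)]

lemma conj_ppF4 (z : ↥(chevF4.diagonalSubgroup K)) (α β : K) :
    (z : GL chevF4.Idx K) * ppF4 α β * (z : GL chevF4.Idx K)⁻¹ = ppF4 (chP z * α) (chQ z * β) := by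
  rw [ppF4, conj_mul, conj_xF4 z (r := 33) (by decide), conj_xF4 z (r := 24) (by decide)]

section Char

variable [CharP K 2] (φ : K ≃+* K)

lemma n1F4_gg : n1F4 (K := K) = ggF4 1 1 1 0 * (xF4 19 1 * xF4 17 1) * ggF4 1 1 0 1 := by
  rw [n1F4_eq, ggF4_eq_gW, ggF4_eq_gW]
  simp only [Tbl.Good2.gW_cons, Tbl.Good2.gW_nil, Tbl.Good2.xN_zero, mul_one, one_mul]
  simp only [mul_assoc]

lemma n0F4_pp : n0F4 (K := K) = ppF4 1 1 * (xF4 14 1 * xF4 23 1) * ppF4 1 1 := n0F4_eq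

/-- A conjugate of the representative of the long orbit. -/
theorem conj_n1F4 (hφ : ∀ x, φ (φ (x ^ 2)) = x) {t : K} {z : ↥(chevF4.diagonalSubgroup K)}
    (hA : (chA z : K) = φ t) (hB : (chB z : K) = t) :
    (z : GL chevF4.Idx K) * n1F4 * (z : GL chevF4.Idx K)⁻¹ = suzU φ t 0 * suzV φ 0 (φ t * t)⁻¹ * suzU φ t (φ t * t) := by
  have h1 : ∀ x, φ ((φ x) ^ 2) = x := fun x => by
    rw [← map_pow]
    exact hφ x
  have hC : (chC z : K) = φ t * t := by
    rw [chC_eq, Units.val_mul, hA, hB]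
  have hD : (chD z : K) = (φ t) ^ 2 * t := by
    rw [chD_eq, Units.val_mul, Units.val_pow_eq_pow_val, hA, hB]
  have h19 : (chiF4 19 (by decide) z : K) = (φ t * t)⁻¹ := by
    rw [chi_neg' (r := 28) (by decide) (by decide) (by decide), Units.val_inv_eq_inv_val]
    exact congrArg _ hC
  have h17 : (chiF4 17 (by decide) z : K) = ((φ t) ^ 2 * t)⁻¹ := by
    rw [chi_neg' (r := 30) (by decide) (by decide) (by decide), Units.val_inv_eq_inv_val]
    exact congrArg _ hD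
  rw [n1F4_gg, conj_mul, conj_mul, conj_mul, conj_ggF4, conj_ggF4, conj_xF4 z (r := 19) (by decide), conj_xF4 z (r := 17) (by decide),
    hA, hB, hC, hD, h19, h17, suzV_eq]
  unfold suzU
  simp only [map_zero, mul_zero, mul_one, zero_mul, zero_add, add_zero, add_self2, ne_eq, OfNat.ofNat_ne_zero, not_false_eq_true, zero_pow]
  have e1 : φ ((φ t * t) ^ 2) = (φ t) ^ 2 * t := by
    rw [mul_pow, map_mul, h1, map_pow, mul_comm]
  have e2 : φ (((φ t * t)⁻¹) ^ 2) = ((φ t) ^ 2 * t)⁻¹ := by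
    rw [inv_pow, map_inv₀, e1]
  rw [e1, e2]
  simp only [Tbl.Good2.gW_cons, Tbl.Good2.gW_nil, Tbl.Good2.xN_zero, mul_one, one_mul]

/-- A conjugate of the representative of the short orbit. -/
theorem conj_n0F4 {c : K} {z : ↥(chevF4.diagonalSubgroup K)}
    (hA : (chP z : K) = φ c) (hB : (chQ z : K) = c) :
    (z : GL chevF4.Idx K) * n0F4 * (z : GL chevF4.Idx K)⁻¹ = parU φ c * parV φ c⁻¹ * parU φ c := by
  have h14 : (chiF4 14 (by decide) z : K) = (φ c)⁻¹ := by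
    rw [chi_neg' (r := 33) (by decide) (by decide) (by decide), Units.val_inv_eq_inv_val]
    exact congrArg _ hA
  have h23 : (chiF4 23 (by decide) z : K) = c⁻¹ := by
    rw [chi_neg' (r := 24) (by decide) (by decide) (by decide), Units.val_inv_eq_inv_val]
    exact congrArg _ hB
  rw [n0F4_pp, conj_mul _ (ppF4 1 1 * (xF4 14 1 * xF4 23 1)) (ppF4 1 1), conj_mul _ (ppF4 1 1) (xF4 14 1 * xF4 23 1),
    conj_mul _ (xF4 14 1) (xF4 23 1), conj_ppF4, conj_xF4 z (r := 14) (by decide), conj_xF4 z (r := 23) (by decide),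
    hA, hB, h14, h23, parV_eq]
  unfold parU
  simp only [map_inv₀, mul_one, Tbl.Good2.gW_cons, Tbl.Good2.gW_nil]

omit [CharP K 2] in
lemma chi_conj_wperm {l : List ℕ} (hl : ∀ i ∈ l, i < chevF4.rank) {s r : ℕ} (hs : s < chevF4.nroots) (hr : r < chevF4.nroots)
    (e : wperm digF4.tbl l s = r) (z : ↥(chevF4.diagonalSubgroup K))
    (hz : good3F4.toGood2.nProd l * (z : GL chevF4.Idx K) * (good3F4.toGood2.nProd l)⁻¹ ∈ chevF4.diagonalSubgroup K) :
    chiF4 r hr ⟨_, hz⟩ = chiF4 s hs z := by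
  subst e
  exact good3F4.toGood2.chi_conj_nProd hl z hs hz

omit [CharP K 2] in
lemma n1F4_conj_mem (y : ↥(chevF4.diagonalSubgroup K)) : n1F4 * (y : GL chevF4.Idx K) * n1F4⁻¹ ∈ chevF4.diagonalSubgroup K :=
  good3F4.toGood2.N_conj_H (good3F4.toGood2.nProd_mem_N (by decide)) y.2

omit [CharP K 2] in
lemma n0F4_conj_mem (y : ↥(chevF4.diagonalSubgroup K)) : n0F4 * (y : GL chevF4.Idx K) * n0F4⁻¹ ∈ chevF4.diagonalSubgroup K :=
  good3F4.toGood2.N_conj_H (good3F4.toGood2.nProd_mem_N (by decide)) y.2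

/-- The commutator with the representative of the long orbit. -/
noncomputable def zetaN1 (z : ↥(chevF4.diagonalSubgroup K)) : ↥(chevF4.diagonalSubgroup K) := z * ⟨_, n1F4_conj_mem z⁻¹⟩

/-- The commutator with the representative of the short orbit. -/
noncomputable def zetaN0 (z : ↥(chevF4.diagonalSubgroup K)) : ↥(chevF4.diagonalSubgroup K) := z * ⟨_, n0F4_conj_mem z⁻¹⟩

omit [CharP K 2] in
lemma zetaN1_coe (z : ↥(chevF4.diagonalSubgroup K)) :
    (zetaN1 z : GL chevF4.Idx K) = (z : GL chevF4.Idx K) * n1F4 * (z : GL chevF4.Idx K)⁻¹ * n1F4⁻¹ := by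
  show (z : GL chevF4.Idx K) * (n1F4 * ((z⁻¹ : ↥(chevF4.diagonalSubgroup K)) : GL chevF4.Idx K) * n1F4⁻¹) = _
  rw [Subgroup.coe_inv]
  group

omit [CharP K 2] in
lemma zetaN0_coe (z : ↥(chevF4.diagonalSubgroup K)) :
    (zetaN0 z : GL chevF4.Idx K) = (z : GL chevF4.Idx K) * n0F4 * (z : GL chevF4.Idx K)⁻¹ * n0F4⁻¹ := by
  show (z : GL chevF4.Idx K) * (n0F4 * ((z⁻¹ : ↥(chevF4.diagonalSubgroup K)) : GL chevF4.Idx K) * n0F4⁻¹) = _
  rw [Subgroup.coe_inv]
  group

omit [CharP K 2] in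
lemma chP_zetaN1 (z : ↥(chevF4.diagonalSubgroup K)) : chP (zetaN1 z) = chP z * (chP z * chD z)⁻¹ := by
  unfold zetaN1
  rw [map_mul, chi_conj_wperm (l := [1, 2, 1, 2]) (s := 37) (r := 33) (by decide) (by decide) (by decide) (by decide +kernel) z⁻¹ (n1F4_conj_mem z⁻¹),
    map_inv, chi37_eq]

omit [CharP K 2] in
lemma chA_zetaN1 (z : ↥(chevF4.diagonalSubgroup K)) : chA (zetaN1 z) = chA z * chA z := by
  unfold zetaN1
  rw [map_mul, chi_conj_wperm (l := [1, 2, 1, 2]) (s := 20) (r := 27) (by decide) (by decide) (by decide) (by decide +kernel) z⁻¹ (n1F4_conj_mem z⁻¹),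
    map_inv, chi_neg' (r := 27) (r' := 20) (by decide) (by decide) (by decide), inv_inv]

omit [CharP K 2] in
lemma chP_zetaN0 (z : ↥(chevF4.diagonalSubgroup K)) : chP (zetaN0 z) = chP z * chP z := by
  unfold zetaN0
  rw [map_mul, chi_conj_wperm (l := [0, 3]) (s := 14) (r := 33) (by decide) (by decide) (by decide) (by decide +kernel) z⁻¹ (n0F4_conj_mem z⁻¹),
    map_inv, chi_neg' (r := 33) (r' := 14) (by decide) (by decide) (by decide), inv_inv]

omit [CharP K 2] in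
lemma chA_zetaN0 (z : ↥(chevF4.diagonalSubgroup K)) : chA (zetaN0 z) = chA z * (chP z * chA z)⁻¹ := by
  unfold zetaN0
  rw [map_mul, chi_conj_wperm (l := [0, 3]) (s := 34) (r := 27) (by decide) (by decide) (by decide) (by decide +kernel) z⁻¹ (n0F4_conj_mem z⁻¹),
    map_inv, chi34_eq]

end Char

section Tw

variable [CharP K 2] (hperf : ∀ x : K, ∃ y : K, y ^ 2 = x) (φ : K ≃+* K)

lemma chQ_fix {z : ↥(chevF4.diagonalSubgroup K)} (hz : (z : GL chevF4.Idx K) ∈ (twF4 hperf φ).fix) :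
    (chQ z : K) = φ ((chP z : K) ^ 2) := by
  have h1 := (twF4 hperf φ).chi_tw hz (r := 33) (by decide) 1
  rw [twF4_f, twF4_f, show excF4.exp 33 = 2 by decide +kernel,
    good3F4.toGood2.chi_congr _ (show 24 < chevF4.nroots by decide) (show (twF4 hperf φ).τ 33 = 24 from tauF4.2.2.2.2.1)] at h1
  simpa [map_pow] using h1

lemma chB_fix {z : ↥(chevF4.diagonalSubgroup K)} (hz : (z : GL chevF4.Idx K) ∈ (twF4 hperf φ).fix) :
    (chB z : K) = φ ((chA z : K) ^ 2) := by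
  have h1 := (twF4 hperf φ).chi_tw hz (r := 27) (by decide) 1
  rw [twF4_f, twF4_f, show excF4.exp 27 = 2 by decide +kernel,
    good3F4.toGood2.chi_congr _ (show 25 < chevF4.nroots by decide) (show (twF4 hperf φ).τ 27 = 25 from tauF4.1)] at h1
  simpa [map_pow] using h1

/-- An element of `H` fixed by the automorphism is determined by its values on `p₁` and `a`. -/
theorem eq_of_chi_F4 {z z' : ↥(chevF4.diagonalSubgroup K)} (hz : (z : GL chevF4.Idx K) ∈ (twF4 hperf φ).fix)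
    (hz' : (z' : GL chevF4.Idx K) ∈ (twF4 hperf φ).fix) (hP : chP z = chP z') (hA : chA z = chA z') : z = z' := by
  have hzz : (((z * z'⁻¹ : ↥(chevF4.diagonalSubgroup K))) : GL chevF4.Idx K) ∈ (twF4 hperf φ).fix :=
    Subgroup.mul_mem _ hz (Subgroup.inv_mem _ hz')
  have hP' : chP (z * z'⁻¹) = 1 := by
    rw [map_mul, map_inv, hP, mul_inv_cancel]
  have hA' : chA (z * z'⁻¹) = 1 := by
    rw [map_mul, map_inv, hA, mul_inv_cancel]
  have hQ' : chQ (z * z'⁻¹) = 1 := by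
    apply Units.ext
    rw [chQ_fix hperf φ hzz, hP']
    simp
  have hB' : chB (z * z'⁻¹) = 1 := by
    apply Units.ext
    rw [chB_fix hperf φ hzz, hA']
    simp
  have h1 := good3F4.toGood2.eq_one_of_chi (z * z'⁻¹) (fun i hi => by
    have hi' : i < 4 := hi
    interval_cases i
    · exact hP'
    · exact hA'
    · exact hB'
    · exact hQ')
  exact mul_inv_eq_one.1 h1

/-- Elements of `H` with prescribed values in a subgroup containing the words. -/
theorem exists_H_value_F4 (hφ : ∀ x, φ (φ (x ^ 2)) = x) {G1 : Subgroup (GL chevF4.Idx K)}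
    (hU : ∀ t u, suzU φ t u ∈ G1) (hV : ∀ t u, suzV φ t u ∈ G1) (hU0 : ∀ t, parU φ t ∈ G1) (hV0 : ∀ t, parV φ t ∈ G1)
    (A B : Kˣ) : ∃ z : ↥(chevF4.diagonalSubgroup K), (z : GL chevF4.Idx K) ∈ G1 ∧ chP z = A ∧ chA z = B := by
  have h1 : ∀ x, φ ((φ x) ^ 2) = x := fun x => by
    rw [← map_pow]
    exact hφ x
  have hn1 : n1F4 ∈ G1 := by
    rw [n1F4_words φ]
    exact Subgroup.mul_mem _ (Subgroup.mul_mem _ (hU _ _) (hV _ _)) (hU _ _)
  have hn0 : n0F4 ∈ G1 := by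
    rw [n0F4_words φ]
    exact Subgroup.mul_mem _ (Subgroup.mul_mem _ (hU0 _) (hV0 _)) (hU0 _)
  set a : K := (A : K) with ha
  set b : K := (B : K) with hb
  have ha0 : a ≠ 0 := A.ne_zero
  have hb0 : b ≠ 0 := B.ne_zero
  set y : K := a * b ^ 2 with hy
  have hy0 : y ≠ 0 := mul_ne_zero ha0 (pow_ne_zero _ hb0)
  set t : K := y * (φ y) ^ 2 with ht
  have hfy0 : φ y ≠ 0 := (map_ne_zero φ).2 hy0
  have ht0 : t ≠ 0 := mul_ne_zero hy0 (pow_ne_zero _ hfy0)
  have hft : φ t = φ y * y := by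
    rw [ht, map_mul, h1]
  have hft0 : φ t ≠ 0 := (map_ne_zero φ).2 ht0
  set d : K := (φ t) ^ 2 / b with hd
  have hd0 : d ≠ 0 := div_ne_zero (pow_ne_zero _ hft0) hb0
  set c : K := φ.symm d with hc
  have hfc : φ c = d := φ.apply_symm_apply d
  have hc0 : c ≠ 0 := by
    intro h
    rw [h, map_zero] at hfc
    exact hd0 hfc.symm
  obtain ⟨z1, h11, h12, h13, h14⟩ := exists_z_F4 (K := K) 1 (Units.mk0 (φ t) hft0) (Units.mk0 t ht0) 1
  obtain ⟨z0, h01, h02, h03, h04⟩ := exists_z_F4 (K := K) (Units.mk0 d hd0) 1 1 (Units.mk0 c hc0)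
  have w1 := conj_n1F4 φ hφ (t := t) (z := z1) (by rw [h12]; rfl) (by rw [h13]; rfl)
  have w0 := conj_n0F4 φ (c := c) (z := z0) (by rw [h01, hfc]; rfl) (by rw [h04]; rfl)
  refine ⟨zetaN1 z1 * zetaN0 z0, ?_, ?_, ?_⟩
  · show (zetaN1 z1 : GL chevF4.Idx K) * (zetaN0 z0 : GL chevF4.Idx K) ∈ G1
    rw [zetaN1_coe, zetaN0_coe, w1, w0]
    exact Subgroup.mul_mem _
      (Subgroup.mul_mem _ (Subgroup.mul_mem _ (Subgroup.mul_mem _ (hU _ _) (hV _ _)) (hU _ _)) (Subgroup.inv_mem _ hn1))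
      (Subgroup.mul_mem _ (Subgroup.mul_mem _ (Subgroup.mul_mem _ (hU0 _) (hV0 _)) (hU0 _)) (Subgroup.inv_mem _ hn0))
  · rw [map_mul, chP_zetaN1, chP_zetaN0, h11, h01, chD_eq, h12, h13]
    apply Units.ext
    simp only [one_mul, Units.val_mul, Units.val_inv_eq_inv_val, Units.val_pow_eq_pow_val, Units.val_mk0]
    rw [hd, hft, ht]
    have hfy : φ y ≠ 0 := hfy0
    field_simp
    rw [hy]
    ring
  · rw [map_mul, chA_zetaN1, chA_zetaN0, h12, h01, h02]
    apply Units.ext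
    simp only [mul_one, one_mul, Units.val_mul, Units.val_inv_eq_inv_val, Units.val_mk0]
    rw [hd]
    field_simp
    rfl

/-- The fixed points of `H` lie in a subgroup containing the words. -/
theorem H_fix_le_F4 (hφ : ∀ x, φ (φ (x ^ 2)) = x) {G1 : Subgroup (GL chevF4.Idx K)} (hG1 : G1 ≤ (twF4 hperf φ).fix)
    (hU : ∀ t u, suzU φ t u ∈ G1) (hV : ∀ t u, suzV φ t u ∈ G1) (hU0 : ∀ t, parU φ t ∈ G1) (hV0 : ∀ t, parV φ t ∈ G1) :
    chevF4.diagonalSubgroup K ⊓ (twF4 hperf φ).fix ≤ G1 := by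
  rintro g hg
  obtain ⟨hgH, hgf⟩ := Subgroup.mem_inf.1 hg
  obtain ⟨z, hz, hP, hA⟩ := exists_H_value_F4 φ hφ hU hV hU0 hV0 (chP ⟨g, hgH⟩) (chA ⟨g, hgH⟩)
  have e := eq_of_chi_F4 hperf φ (z := ⟨g, hgH⟩) (z' := z) hgf (hG1 hz) hP.symm hA.symm
  have e2 : g = z := congrArg Subtype.val e
  rw [e2]
  exact hz

/-- The fixed points lie in any subgroup containing the words. -/
theorem fix_le_F4 (hφ : ∀ x, φ (φ (x ^ 2)) = x) {G1 : Subgroup (GL chevF4.Idx K)} (hG1 : G1 ≤ (twF4 hperf φ).fix)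
    (hU : ∀ t u, suzU φ t u ∈ G1) (hV : ∀ t u, suzV φ t u ∈ G1) (hU0 : ∀ t, parU φ t ∈ G1) (hV0 : ∀ t, parV φ t ∈ G1) :
    (twF4 hperf φ).fix ≤ G1 := by
  refine (twnF4 hperf φ hφ).fix_le chainF4' ?_ ?_ (H_fix_le_F4 hperf φ hφ hG1 hU hV hU0 hV0)
  · intro j hj x hx
    have hj' : j < 2 := hj
    interval_cases j
    · obtain ⟨t, rfl⟩ := (mem_X0_fix_iff hperf φ hφ).1 hx
      exact hU0 t
    · obtain ⟨t, u, rfl⟩ := (mem_X1_fix_iff hperf φ hφ).1 hx
      exact hU t u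
  · intro j hj
    have hj' : j < 2 := hj
    interval_cases j
    · show n0F4 ∈ _
      rw [n0F4_words φ]
      exact Subgroup.mul_mem _ (Subgroup.mul_mem _ (hU0 _) (hV0 _)) (hU0 _)
    · show n1F4 ∈ _
      rw [n1F4_words φ]
      exact Subgroup.mul_mem _ (Subgroup.mul_mem _ (hU _ _) (hV _ _)) (hU _ _)

omit [CharP K 2] in
theorem gW_pair_pos {e : ℕ} (hq : ∀ x, φ x = x ^ e) (t : K) : good3F4.toGood2.gW (f4PairWord e f4p1 f4p4 t) = parU φ t := by
  unfold f4PairWord parU f4p1 f4p4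
  rw [hq]
  simp only [Tbl.Good2.gW_cons, Tbl.Good2.gW_nil, mul_one]

theorem gW_pair_neg {e : ℕ} (hq : ∀ x, φ x = x ^ e) (t : K) : good3F4.toGood2.gW (f4PairWord e f4m1 f4m4 t) = parV φ t := by
  rw [parV_eq]
  unfold f4PairWord f4m1 f4m4
  rw [hq]

omit [CharP K 2] in
theorem gW_b2_pos {e : ℕ} (hq : ∀ x, φ x = x ^ e) (t u : K) :
    good3F4.toGood2.gW (b2ClassWord e f4a f4b f4ab f4aab t u) = suzU φ t u := by
  unfold b2ClassWord suzU f4a f4b f4ab f4aab
  rw [ggF4_eq_gW]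
  congr 1
  simp only [hq]
  rw [pow_succ, pow_mul]

theorem gW_b2_neg {e : ℕ} (hq : ∀ x, φ x = x ^ e) (t u : K) :
    good3F4.toGood2.gW (b2ClassWord e f4ma f4mb f4mab f4maab t u) = suzV φ t u := by
  rw [suzV_eq]
  unfold b2ClassWord f4ma f4mb f4mab f4maab
  congr 1
  simp only [hq]
  rw [pow_succ, pow_mul]

/-- `²F₄` is the group of fixed points. -/
theorem twistedF4_eq {e : ℕ} (hq : ∀ x, φ x = x ^ e) (hφ : ∀ x, φ (φ (x ^ 2)) = x) :
    twistedF4 K e = (twF4 hperf φ).fix := by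
  have hle : twistedF4 K e ≤ (twF4 hperf φ).fix := by
    refine (Subgroup.closure_le _).2 ?_
    rintro g ⟨w, hw, hg⟩
    rcases hw with ⟨t, rfl | rfl⟩ | ⟨t, u, rfl | rfl⟩
    · rw [good3F4.toGood2.eq_gW hg, gW_pair_pos φ hq]
      exact parU_fix hperf φ hφ t
    · rw [good3F4.toGood2.eq_gW hg, gW_pair_neg φ hq]
      exact parV_fix hperf φ hφ t
    · rw [good3F4.toGood2.eq_gW hg, gW_b2_pos φ hq]
      exact suzU_fix hperf φ hφ t u
    · rw [good3F4.toGood2.eq_gW hg, gW_b2_neg φ hq]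
      exact suzV_fix hperf φ hφ t u
  refine le_antisymm hle (fix_le_F4 hperf φ hφ hle ?_ ?_ ?_ ?_)
  · intro t u
    rw [← gW_b2_pos φ hq]
    exact Subgroup.subset_closure ⟨_, Or.inr ⟨t, u, Or.inl rfl⟩, good3F4.toGood2.gW_coe _⟩
  · intro t u
    rw [← gW_b2_neg φ hq]
    exact Subgroup.subset_closure ⟨_, Or.inr ⟨t, u, Or.inr rfl⟩, good3F4.toGood2.gW_coe _⟩
  · intro t
    rw [← gW_pair_pos φ hq]
    exact Subgroup.subset_closure ⟨_, Or.inl ⟨t, Or.inl rfl⟩, good3F4.toGood2.gW_coe _⟩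
  · intro t
    rw [← gW_pair_neg φ hq]
    exact Subgroup.subset_closure ⟨_, Or.inl ⟨t, Or.inr rfl⟩, good3F4.toGood2.gW_coe _⟩

end Tw

end

end Cfsg.Agent.Lib.Chev
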