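/-
The group ²F₄(q): the finite setting, the orders of `U¹`, `H¹` and of the group.
-/
import Cfsg.Agent.Lib.Tw.ReeF4e
import Cfsg.Agent.Lib.Tw.Par3
import Cfsg.Agent.Lib.Tw.Frob

set_option autoImplicit false
set_option maxRecDepth 100000

namespace Cfsg.Agent.Lib.Chev

open Cfsg.Lie

/-- The head letters of the orbits. -/
def hdF4 (j : ℕ) : ℕ := [0, 1].getD j 0

/-- The weights of the orbits. -/
def wtF4 (j : ℕ) : ℕ := [1, 2].getD j 0

/-- Labels and weights, level 0. -/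
def parOrbF40 : List (ℕ × ℕ) := [(0xfffdfe000000, 0), (0xffdea55a0000, 2), (0xf3a9faa06820, 3), (0x9e56255b9482, 5), (0x4129daa46a79, 6), (0x416055f95cf, 8), (0x5aa57bff, 9), (0x7fbfff, 11)]

theorem chkParOrbF40 : digF4.tbl.chkOrbT 2 inJF4 wJF4 hdF4 wtF4 15 9 0xfffdfe000000 parOrbF40 = true := by decide +kernel

theorem sumParOrbF40 (q : ℕ) : (parOrbF40.map fun e => q ^ e.2).sum = 1 + q ^ 2 + q ^ 3 + q ^ 5 + q ^ 6 + q ^ 8 + q ^ 9 + q ^ 11 := by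
  simp only [parOrbF40, List.map_cons, List.map_nil, List.sum_cons, List.sum_nil]
  ring

/-- Labels and weights, level 1. -/
def parOrbF41 : List (ℕ × ℕ) := [(0xffffff000000, 0), (0xfffdfe804000, 1)]

theorem chkParOrbF41 : digF4.tbl.chkOrbT 2 inJF4 wJF4 hdF4 wtF4 9 0 0xffffff000000 parOrbF41 = true := by decide +kernel

theorem sumParOrbF41 (q : ℕ) : (parOrbF41.map fun e => q ^ e.2).sum = 1 + q ^ 1 := by
  simp only [parOrbF41, List.map_cons, List.map_nil, List.sum_cons, List.sum_nil]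
  ring


section

variable {K : Type*} [Field K] [Fintype K] {m : ℕ}

/-- The characteristic of the field. -/
theorem charF4 (hK : Fintype.card K = 2 ^ (2 * m + 1)) : CharP K 2 := by
  obtain ⟨p, hc, n, hp, hn⟩ := FiniteField.card' (K := K)
  have h1 : p ∣ 2 ^ (2 * m + 1) := by
    rw [← hK, hn]
    exact dvd_pow_self _ n.ne_zero
  have h2 : p = 2 := (Nat.prime_dvd_prime_iff_eq hp Nat.prime_two).1 (hp.dvd_of_dvd_pow h1)
  subst h2
  exact hc

/-- The data of `²F₄(2^(2m+1))`. -/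
theorem setupF4 [CharP K 2] (hK : Fintype.card K = 2 ^ (2 * m + 1)) :
    ∃ (hperf : ∀ x : K, ∃ y : K, y ^ 2 = x) (φ : K ≃+* K), (∀ x, φ x = x ^ 2 ^ m) ∧ (∀ x, φ (φ (x ^ 2)) = x) ∧
      twistedF4 K (2 ^ m) = (twF4 hperf φ).fix := by
  haveI : Fact (Nat.Prime 2) := ⟨Nat.prime_two⟩
  haveI : ExpChar K 2 := ExpChar.prime Nat.prime_two
  have hbij : Function.Bijective (iterateFrobenius K 2 m) :=
    Finite.injective_iff_bijective.1 (iterateFrobenius K 2 m).injective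
  let φ : K ≃+* K := RingEquiv.ofBijective _ hbij
  have hq : ∀ x, φ x = x ^ 2 ^ m := fun x => iterateFrobenius_def 2 m x
  have hφ : ∀ x, φ (φ (x ^ 2)) = x := fun x => by
    rw [hq, hq, ← pow_mul, ← pow_mul]
    have e : 2 * (2 ^ m * 2 ^ m) = 2 ^ (2 * m + 1) := by ring
    rw [e, ← hK, FiniteField.pow_card]
  have hperf : ∀ x : K, ∃ y : K, y ^ 2 = x := fun x => ⟨φ (φ x), by
    rw [← map_pow, ← map_pow]
    exact hφ x⟩
  exact ⟨hperf, φ, hq, hφ, twistedF4_eq hperf φ hq hφ⟩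

omit [Field K] in
lemma cardK_F4 (hK : Fintype.card K = 2 ^ (2 * m + 1)) : Nat.card K = 2 ^ (2 * m + 1) := by
  rw [Nat.card_eq_fintype_card, hK]

end

section

variable {K : Type*} [Field K] [CharP K 2] (hperf : ∀ x : K, ∃ y : K, y ^ 2 = x) (φ : K ≃+* K)

/-- The values on `p₁` and `a` on the fixed points of `H`. -/
noncomputable def chiFixF4 : ↥(chevF4.diagonalSubgroup K ⊓ (twF4 hperf φ).fix) →* Kˣ × Kˣ :=
  MonoidHom.prod (chP.comp (Subgroup.inclusion inf_le_left)) (chA.comp (Subgroup.inclusion inf_le_left))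

lemma chiFixF4_apply (z : ↥(chevF4.diagonalSubgroup K ⊓ (twF4 hperf φ).fix)) :
    chiFixF4 hperf φ z = (chP ⟨z.1, z.2.1⟩, chA ⟨z.1, z.2.1⟩) := rfl

theorem chiFixF4_bij (hφ : ∀ x, φ (φ (x ^ 2)) = x) : Function.Bijective (chiFixF4 hperf φ) := by
  constructor
  · intro a b e
    rw [chiFixF4_apply, chiFixF4_apply, Prod.mk.injEq] at e
    have := eq_of_chi_F4 hperf φ (z := ⟨a.1, a.2.1⟩) (z' := ⟨b.1, b.2.1⟩) a.2.2 b.2.2 e.1 e.2
    exact Subtype.ext (congrArg (fun x : ↥(chevF4.diagonalSubgroup K) => x.1) this)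
  · rintro ⟨A, B⟩
    obtain ⟨z, hz, hP, hA⟩ := exists_H_value_F4 φ hφ (G1 := (twF4 hperf φ).fix) (suzU_fix hperf φ hφ) (suzV_fix hperf φ hφ)
      (parU_fix hperf φ hφ) (parV_fix hperf φ hφ) A B
    refine ⟨⟨z.1, z.2, hz⟩, ?_⟩
    rw [chiFixF4_apply]
    exact Prod.ext hP hA

/-- The order of the fixed points of the group of the long orbit. -/
theorem cardX1F4 (hφ : ∀ x, φ (φ (x ^ 2)) = x) [Finite K] :
    Nat.card ↥(XJ chevF4 K (orbF4.J 1) ⊓ (twF4 hperf φ).fix) = Nat.card K ^ 2 := by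
  have e : K × K ≃ ↥(XJ chevF4 K (orbF4.J 1) ⊓ (twF4 hperf φ).fix) :=
    Equiv.ofBijective (fun p => ⟨suzU φ p.1 p.2, (mem_X1_fix_iff hperf φ hφ).2 ⟨_, _, rfl⟩⟩) ⟨by
      rintro ⟨t, u⟩ ⟨t', u'⟩ h
      obtain ⟨a, b⟩ := suzU_inj φ (congrArg Subtype.val h)
      subst a b
      rfl, by
      rintro ⟨g, hg⟩
      obtain ⟨t, u, rfl⟩ := (mem_X1_fix_iff hperf φ hφ).1 hg
      exact ⟨(t, u), rfl⟩⟩
  rw [← Nat.card_congr e, Nat.card_prod]
  ring

/-- The order of the fixed points of the group of the short orbit. -/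
theorem cardX0F4 (hφ : ∀ x, φ (φ (x ^ 2)) = x) [Finite K] :
    Nat.card ↥(XJ chevF4 K (orbF4.J 0) ⊓ (twF4 hperf φ).fix) = Nat.card K := by
  have e : K ≃ ↥(XJ chevF4 K (orbF4.J 0) ⊓ (twF4 hperf φ).fix) :=
    Equiv.ofBijective (fun t => ⟨parU φ t, (mem_X0_fix_iff hperf φ hφ).2 ⟨_, rfl⟩⟩) ⟨by
      intro t t' h
      exact parU_inj φ (congrArg Subtype.val h), by
      rintro ⟨g, hg⟩
      obtain ⟨t, rfl⟩ := (mem_X0_fix_iff hperf φ hφ).1 hg
      exact ⟨t, rfl⟩⟩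
  exact (Nat.card_congr e).symm

/-- The order of the fixed points of `U`. -/
theorem cardUF4 (hφ : ∀ x, φ (φ (x ^ 2)) = x) [Finite K] :
    Nat.card ↥(chevF4.posUnipotent K ⊓ (twF4 hperf φ).fix) = Nat.card K ^ 12 := by
  rw [(twnF4 hperf φ hφ).card_U_fix chainF4']
  show (([0, 1, 0, 1, 0, 1, 0, 1] : List ℕ).map fun j => Nat.card ↥(XJ chevF4 K (orbF4.J j) ⊓ (twF4 hperf φ).fix)).prod = _
  simp only [List.map_cons, List.map_nil, List.prod_cons, List.prod_nil, cardX0F4 hperf φ hφ, cardX1F4 hperf φ hφ]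
  ring

end

section

variable {K : Type*} [Field K] [Fintype K] {m : ℕ} [CharP K 2] (hperf : ∀ x : K, ∃ y : K, y ^ 2 = x) (φ : K ≃+* K)

/-- The order of the fixed points of `H`. -/
theorem cardHF4 (hK : Fintype.card K = 2 ^ (2 * m + 1)) (hφ : ∀ x, φ (φ (x ^ 2)) = x) :
    Nat.card ↥(chevF4.diagonalSubgroup K ⊓ (twF4 hperf φ).fix) = (2 ^ (2 * m + 1) - 1) ^ 2 := by
  rw [Nat.card_congr (Equiv.ofBijective _ (chiFixF4_bij hperf φ hφ)), Nat.card_prod, Nat.card_units, cardK_F4 hK]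
  ring

/-- The order of the group. -/
theorem orderRee2F4 (hK : Fintype.card K = 2 ^ (2 * m + 1)) (hφ : ∀ x, φ (φ (x ^ 2)) = x) :
    Nat.card ↥(twF4 hperf φ).fix = (2 ^ (2 * m + 1)) ^ 12 * (2 ^ (2 * m + 1) - 1) * ((2 ^ (2 * m + 1)) ^ 3 + 1) *
      ((2 ^ (2 * m + 1)) ^ 4 - 1) * ((2 ^ (2 * m + 1)) ^ 6 + 1) := by
  have A := twnF4 hperf φ hφ
  have hXq : ∀ j, j < orbF4.m → Nat.card ↥(XJ chevF4 K (orbF4.J j) ⊓ (twF4 hperf φ).fix) = (2 ^ (2 * m + 1)) ^ wtF4 j := by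
    intro j hj
    have hj' : j < 2 := hj
    interval_cases j
    · rw [cardX0F4 hperf φ hφ, cardK_F4 hK]
      exact (pow_one _).symm
    · rw [cardX1F4 hperf φ hφ, cardK_F4 hK]
      rfl
  have hhd : ∀ j, j < orbF4.m → hdF4 j < chevF4.rank ∧ orbF4.inJ (hdF4 j) = j := by
    have : ∀ j, j < 2 → hdF4 j < chevF4.rank ∧ inJF4 (hdF4 j) = j := by decide +kernel
    exact this
  have hlet : ∀ j, j < orbF4.m → ∀ i ∈ orbF4.wJ j, orbF4.inJ i = j := by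
    have : ∀ j, j < 2 → ∀ i ∈ wJF4 j, inJF4 i = j := by decide +kernel
    exact this
  have h0 := A.card_par_step hlet hhd hXq chkParOrbF40
  have h1 := A.card_par_step hlet hhd hXq chkParOrbF41
  rw [A.par_top (J := maskSet 15) (by
    intro j hj
    have hj' : j < 4 := hj
    interval_cases j <;> rfl)] at h0
  rw [Tbl.Good3.parabolic_zero, TwN.card_B_fix, cardUF4 hperf φ hφ, cardHF4 hperf φ hK hφ, cardK_F4 hK] at h1
  rw [h0, h1, sumParOrbF40, sumParOrbF41]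
  have hq1 : 1 ≤ 2 ^ (2 * m + 1) := Nat.one_le_two_pow
  generalize 2 ^ (2 * m + 1) = q at hq1 ⊢
  have key : (((1 + q ^ 2 + q ^ 3 + q ^ 5 + q ^ 6 + q ^ 8 + q ^ 9 + q ^ 11) * ((1 + q ^ 1) * (q ^ 12 * (q - 1) ^ 2)) : ℕ) : ℤ) =
      ((q ^ 12 * (q - 1) * (q ^ 3 + 1) * (q ^ 4 - 1) * (q ^ 6 + 1) : ℕ) : ℤ) := by
    push_cast [cast_pow_sub_one hq1, Nat.cast_sub hq1]
    ring
  exact_mod_cast key

end

end Cfsg.Agent.Lib.Chev
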