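/-
The group ²F₄(q): the action of `H¹`, perfectness, the core of the Borel subgroup and simplicity.
-/
import Cfsg.Agent.Lib.Tw.ReeF4f
import Cfsg.Agent.Lib.Tw.Weyl

set_option autoImplicit false
set_option maxRecDepth 100000

namespace Cfsg.Agent.Lib.Chev

open Cfsg.Lie

section

variable {K : Type*} [Field K] [CharP K 2] (hperf : ∀ x : K, ∃ y : K, y ^ 2 = x) (φ : K ≃+* K)

section Mul

variable {φ}

omit hperf in
/-- The multiplication of the fixed points of the long orbit. -/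
theorem suzU_mul (hφ : ∀ x, φ (φ (x ^ 2)) = x) (t u t' u' : K) :
    suzU φ t u * suzU φ t' u' = suzU φ (t + t') (u + u' + φ t * t') := by
  have h1 : ∀ x, φ ((φ x) ^ 2) = x := fun x => by
    rw [← map_pow]
    exact hφ x
  unfold suzU
  rw [(f4Rel (K := K)).gg_mul]
  have e1 : φ t + φ t' = φ (t + t') := (map_add φ t t').symm
  have e3 : φ t' * t + (φ t * t + u) + (φ t' * t' + u') = φ (t + t') * (t + t') + (u + u' + φ t * t') := by
    rw [map_add]
    linear_combination -(add_self2 (φ t * t'))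
  have e4 : (φ t') ^ 2 * t + φ (u ^ 2) + φ (u' ^ 2) = φ ((u + u' + φ t * t') ^ 2) := by
    rw [add_sq2, add_sq2, mul_pow, map_add, map_add, map_mul, h1, map_pow φ t' 2]
    ring
  rw [e1, e3, e4]

omit hperf in
theorem suzU_inv (hφ : ∀ x, φ (φ (x ^ 2)) = x) (t u : K) : (suzU φ t u)⁻¹ = suzU φ t (u + φ t * t) := by
  refine inv_eq_of_mul_eq_one_right ?_
  rw [suzU_mul hφ, add_self2]
  have e : u + (u + φ t * t) + φ t * t = 0 := by
    linear_combination add_self2 u + add_self2 (φ t * t)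
  rw [e]
  exact suzU_zero φ

omit [CharP K 2] in
theorem parU_mul (hcomm : ∀ a b : K, Commute (xF4 33 a) (xF4 24 b)) (t t' : K) : parU φ t * parU φ t' = parU φ (t + t') := by
  unfold parU
  rw [ppF4_mul_eq _ _ _ _ (hcomm _ _).symm.eq, map_add]

theorem parU_inv (t : K) : (parU φ t)⁻¹ = parU φ t := by
  refine inv_eq_of_mul_eq_one_right ?_
  rw [parU_mul comm_33_24, add_self2]
  exact parU_zero φ

end Mul

/-- The action of the fixed points of `H` on the fixed points of the long orbit. -/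
theorem conj_suzU (hφ : ∀ x, φ (φ (x ^ 2)) = x) {z : ↥(chevF4.diagonalSubgroup K)} (hz : (z : GL chevF4.Idx K) ∈ (twF4 hperf φ).fix) (t u : K) :
    (z : GL chevF4.Idx K) * suzU φ t u * (z : GL chevF4.Idx K)⁻¹ = suzU φ ((chB z : K) * t) ((chC z : K) * u) := by
  have h1 : ∀ x, φ ((φ x) ^ 2) = x := fun x => by
    rw [← map_pow]
    exact hφ x
  have hB := chB_fix hperf φ hz
  have hfB : φ (chB z : K) = chA z := by
    rw [hB]
    exact hφ _
  have hC : (chC z : K) = chA z * chB z := by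
    rw [chC_eq, Units.val_mul]
  have hD : (chD z : K) = (chA z : K) ^ 2 * chB z := by
    rw [chD_eq, Units.val_mul, Units.val_pow_eq_pow_val]
  unfold suzU
  rw [conj_ggF4, hC, hD]
  have e1 : φ ((chB z : K) * t) = (chA z : K) * φ t := by
    rw [map_mul, hfB]
  have e3 : (chA z : K) * (chB z : K) * (φ t * t + u) = φ ((chB z : K) * t) * ((chB z : K) * t) + (chA z : K) * (chB z : K) * u := by
    rw [e1]
    ring
  have e4 : (chA z : K) ^ 2 * (chB z : K) * φ (u ^ 2) = φ (((chA z : K) * (chB z : K) * u) ^ 2) := by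
    rw [mul_pow, mul_pow, map_mul, map_mul, ← hB, map_pow φ (chB z : K) 2, hfB]
    ring
  rw [e1, e3, e4, e1]

/-- The action of the fixed points of `H` on the fixed points of the short orbit. -/
theorem conj_parU (hφ : ∀ x, φ (φ (x ^ 2)) = x) {z : ↥(chevF4.diagonalSubgroup K)} (hz : (z : GL chevF4.Idx K) ∈ (twF4 hperf φ).fix) (t : K) :
    (z : GL chevF4.Idx K) * parU φ t * (z : GL chevF4.Idx K)⁻¹ = parU φ ((chQ z : K) * t) := by
  have hQ := chQ_fix hperf φ hz
  have hfQ : φ (chQ z : K) = chP z := by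
    rw [hQ]
    exact hφ _
  unfold parU
  rw [conj_ppF4, map_mul, hfQ]

omit [CharP K 2] in
/-- The nontriviality of the values. -/
lemma F_ne_one (hφ : ∀ x, φ (φ (x ^ 2)) = x) {a : K} (ha : a ≠ 1) : a * φ (a ^ 2) ≠ 1 := by
  have h1 : ∀ x, φ ((φ x) ^ 2) = x := fun x => by
    rw [← map_pow]
    exact hφ x
  intro h
  rw [map_pow] at h
  have h2 : φ a * a = 1 := by
    have := congrArg φ h
    rwa [map_mul, h1, map_one] at this
  apply ha
  have h3 : φ a = 1 := by
    calc φ a = (φ a * a) * φ a := by rw [h2, one_mul]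
      _ = a * (φ a) ^ 2 := by ring
      _ = 1 := h
  exact (map_eq_one_iff φ φ.injective).1 h3

open scoped commutatorElement in
/-- Perfectness. -/
theorem perfectF4 (hφ : ∀ x, φ (φ (x ^ 2)) = x) {a : K} (ha0 : a ≠ 0) (ha1 : a ≠ 1) : commutator ↥(twF4 hperf φ).fix = ⊤ := by
  set G := (twF4 hperf φ).fix with hG
  set M : Subgroup (GL chevF4.Idx K) := (commutator ↥G).map G.subtype with hM
  have hMG : M ≤ G := by
    rintro _ ⟨x, _, rfl⟩
    exact x.2
  have hmem : ∀ g (hg : g ∈ G), (⟨g, hg⟩ : ↥G) ∈ commutator ↥G → g ∈ M := fun g hg h => ⟨⟨g, hg⟩, h, rfl⟩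
  have hcomm : ∀ z, z ∈ G → ∀ x, x ∈ G → z * x * z⁻¹ * x⁻¹ ∈ M := by
    intro z hz x hx
    refine hmem _ (Subgroup.mul_mem _ (Subgroup.mul_mem _ (Subgroup.mul_mem _ hz hx) (Subgroup.inv_mem _ hz)) (Subgroup.inv_mem _ hx)) ?_
    have e : (⟨z * x * z⁻¹ * x⁻¹, Subgroup.mul_mem _ (Subgroup.mul_mem _ (Subgroup.mul_mem _ hz hx) (Subgroup.inv_mem _ hz)) (Subgroup.inv_mem _ hx)⟩ : ↥G) =
        ⁅(⟨z, hz⟩ : ↥G), (⟨x, hx⟩ : ↥G)⁆ := by
      apply Subtype.ext
      rfl
    rw [e]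
    exact Subgroup.commutator_mem_commutator (Subgroup.mem_top _) (Subgroup.mem_top _)
  have hfa : φ (a ^ 2) ≠ 1 := by
    intro h
    have h2 : a ^ 2 = 1 := (map_eq_one_iff φ φ.injective).1 h
    have h3 : (a + 1) ^ 2 = 0 := by
      rw [add_sq2, h2, one_pow, add_self2]
    have h4 : a + 1 = 0 := pow_eq_zero_iff (by norm_num) |>.1 h3
    apply ha1
    have h5 := add_self2 (1 : K)
    exact add_right_cancel (h4.trans h5.symm)
  -- the two elements
  obtain ⟨z1', hz1'⟩ := (chiFixF4_bij hperf φ hφ).2 (1, Units.mk0 a ha0)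
  obtain ⟨z2', hz2'⟩ := (chiFixF4_bij hperf φ hφ).2 (Units.mk0 a ha0, 1)
  rw [chiFixF4_apply, Prod.mk.injEq] at hz1' hz2'
  have hz1 : (z1'.1 : GL chevF4.Idx K) ∈ G := z1'.2.2
  have hz2 : (z2'.1 : GL chevF4.Idx K) ∈ G := z2'.2.2
  let z1 : ↥(chevF4.diagonalSubgroup K) := ⟨z1'.1, z1'.2.1⟩
  let z2 : ↥(chevF4.diagonalSubgroup K) := ⟨z2'.1, z2'.2.1⟩
  have hA1 : (chA z1 : K) = a := by
    have := congrArg Units.val hz1'.2
    simpa using this
  have hP2 : (chP z2 : K) = a := by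
    have := congrArg Units.val hz2'.1
    simpa using this
  have hB1 : (chB z1 : K) = φ (a ^ 2) := by
    rw [chB_fix hperf φ hz1, hA1]
  have hC1 : (chC z1 : K) = a * φ (a ^ 2) := by
    rw [chC_eq, Units.val_mul, hA1, hB1]
  have hQ2 : (chQ z2 : K) = φ (a ^ 2) := by
    rw [chQ_fix hperf φ hz2, hP2]
  have hC1' : a * φ (a ^ 2) ≠ 1 := F_ne_one φ hφ ha1
  have hCad : a * φ (a ^ 2) + 1 ≠ 0 := fun h => hC1' (by
    have h5 := add_self2 (1 : K)
    exact add_right_cancel (h.trans h5.symm))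
  have hBad : φ (a ^ 2) + 1 ≠ 0 := fun h => hfa (by
    have h5 := add_self2 (1 : K)
    exact add_right_cancel (h.trans h5.symm))
  -- the second layer of the long orbit
  have hU2 : ∀ u, suzU φ 0 u ∈ M := by
    intro u
    set u0 := u / (a * φ (a ^ 2) + 1) with hu0
    have h0 : u = (a * φ (a ^ 2) + 1) * u0 := by
      rw [hu0]
      field_simp
    have h3 := hcomm _ hz1 _ (suzU_fix hperf φ hφ 0 u0)
    have e := conj_suzU hperf φ hφ (z := z1) hz1 0 u0
    rw [mul_zero, hC1] at e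
    have e3 : (z1 : GL chevF4.Idx K) * suzU φ 0 u0 * (z1 : GL chevF4.Idx K)⁻¹ * (suzU φ 0 u0)⁻¹ = suzU φ 0 u := by
      rw [e, suzU_inv hφ, suzU_mul hφ]
      simp only [map_zero, zero_mul, add_zero]
      congr 1
      rw [h0]
      ring
    rw [← e3]
    exact h3
  -- the first layer of the long orbit
  have hU : ∀ t u, suzU φ t u ∈ M := by
    intro t u
    set t0 := t / (φ (a ^ 2) + 1) with ht0
    have h0 : t = (φ (a ^ 2) + 1) * t0 := by
      rw [ht0]
      field_simp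
    have h3 := hcomm _ hz1 _ (suzU_fix hperf φ hφ t0 0)
    have e := conj_suzU hperf φ hφ (z := z1) hz1 t0 0
    rw [mul_zero, hB1] at e
    have e3 : (z1 : GL chevF4.Idx K) * suzU φ t0 0 * (z1 : GL chevF4.Idx K)⁻¹ * (suzU φ t0 0)⁻¹ =
        suzU φ t (0 + (0 + φ t0 * t0) + φ (φ (a ^ 2) * t0) * t0) := by
      rw [e, suzU_inv hφ, suzU_mul hφ]
      congr 1
      · rw [h0]
        ring
    have h4 := e3 ▸ h3
    set u1 := 0 + (0 + φ t0 * t0) + φ (φ (a ^ 2) * t0) * t0 with hu1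
    have e5 : suzU φ t u = suzU φ t u1 * suzU φ 0 (u + u1) := by
      rw [suzU_mul hφ]
      congr 1
      · rw [add_zero]
      · rw [mul_zero, add_zero]
        linear_combination -(add_self2 u1)
    rw [e5]
    exact Subgroup.mul_mem _ h4 (hU2 _)
  -- the short orbit
  have hP : ∀ t, parU φ t ∈ M := by
    intro t
    set t0 := t / (φ (a ^ 2) + 1) with ht0
    have h0 : t = (φ (a ^ 2) + 1) * t0 := by
      rw [ht0]
      field_simp
    have h3 := hcomm _ hz2 _ (parU_fix hperf φ hφ t0)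
    have e := conj_parU hperf φ hφ (z := z2) hz2 t0
    rw [hQ2] at e
    have e3 : (z2 : GL chevF4.Idx K) * parU φ t0 * (z2 : GL chevF4.Idx K)⁻¹ * (parU φ t0)⁻¹ = parU φ t := by
      rw [e, parU_inv, parU_mul comm_33_24]
      congr 1
      rw [h0]
      ring
    rw [← e3]
    exact h3
  have hconj : ∀ n, n ∈ G → ∀ x, x ∈ M → n * x * n⁻¹ ∈ M := by
    intro n hn x hx
    obtain ⟨c, hc, e⟩ := hx
    refine ⟨⟨n, hn⟩ * c * ⟨n, hn⟩⁻¹, (inferInstance : (commutator ↥G).Normal).conj_mem _ hc _, ?_⟩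
    show n * c.1 * n⁻¹ = _
    have e' : c.1 = x := e
    rw [e']
  have hV : ∀ t u, suzV φ t u ∈ M := fun t u => hconj _ (n1F4_fix hperf φ hφ) _ (hU t u)
  have hQ : ∀ t, parV φ t ∈ M := fun t => hconj _ (n0F4_fix hperf φ hφ) _ (hP t)
  have hle := fix_le_F4 hperf φ hφ hMG hU hV hP hQ
  rw [eq_top_iff]
  intro g _
  obtain ⟨c, hc, e⟩ := hle g.2
  have : c = g := Subtype.ext e
  rwa [← this]

omit hperf [CharP K 2] in
/-- An element of `U` outside the subgroups `U_i`, short orbit. -/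
lemma parU_not_mem_Ui : parU φ 1 ∉ Ui chevF4 K 0 ∧ parU φ 1 ∉ Ui chevF4 K 3 := by
  unfold parU
  rw [map_one]
  constructor
  · intro h
    have h2 : xF4 24 (1 : K) ∈ Ui chevF4 K 0 := by
      have := good3F4.toGood2.gW_mem_Ui (F := K) (i := 0) (l := [(24, 1)]) (fun e he => by
        simp only [List.mem_cons, List.not_mem_nil, or_false] at he
        subst he
        exact (show 24 < chevF4.nroots ∧ chevF4.nroots / 2 ≤ 24 ∧ 24 ≠ chevF4.simple 0 by decide))
      simpa using this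
    have h4 := Subgroup.mul_mem _ h (Subgroup.inv_mem _ h2)
    rw [mul_inv_cancel_right] at h4
    have h5 : xF4 33 (1 : K) = good3F4.toGood2.xU (good3F4.toGood2.simple_lt (show 0 < chevF4.rank by decide)) 1 :=
      good3F4.toGood2.xN_of_lt _ _
    rw [h5] at h4
    have h6 : (1 : K) = 0 := good3F4.toGood2.xp_mem_Ui (show 0 < chevF4.rank by decide) h4
    exact one_ne_zero h6
  · intro h
    have h2 : xF4 33 (1 : K) ∈ Ui chevF4 K 3 := by
      have := good3F4.toGood2.gW_mem_Ui (F := K) (i := 3) (l := [(33, 1)]) (fun e he => by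
        simp only [List.mem_cons, List.not_mem_nil, or_false] at he
        subst he
        exact (show 33 < chevF4.nroots ∧ chevF4.nroots / 2 ≤ 33 ∧ 33 ≠ chevF4.simple 3 by decide))
      simpa using this
    have h4 := Subgroup.mul_mem _ (Subgroup.inv_mem _ h2) h
    rw [inv_mul_cancel_left] at h4
    have h5 : xF4 24 (1 : K) = good3F4.toGood2.xU (good3F4.toGood2.simple_lt (show 3 < chevF4.rank by decide)) 1 :=
      good3F4.toGood2.xN_of_lt _ _
    rw [h5] at h4
    have h6 : (1 : K) = 0 := good3F4.toGood2.xp_mem_Ui (show 3 < chevF4.rank by decide) h4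
    exact one_ne_zero h6

omit hperf [CharP K 2] in
/-- An element of `U` outside the subgroups `U_i`, long orbit. -/
lemma suzU_not_mem_Ui : suzU φ 1 0 ∉ Ui chevF4 K 1 ∧ suzU φ 1 0 ∉ Ui chevF4 K 2 := by
  have e0 : suzU φ (1 : K) 0 = xF4 27 1 * xF4 25 1 * xF4 28 1 := by
    unfold suzU
    rw [ggF4_eq_gW]
    simp [Tbl.Good2.xN_zero, mul_assoc]
  rw [e0]
  constructor
  · intro h
    have h2 : xF4 25 (1 : K) * xF4 28 1 ∈ Ui chevF4 K 1 := by
      have := good3F4.toGood2.gW_mem_Ui (F := K) (i := 1) (l := [(25, 1), (28, 1)]) (fun e he => by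
        simp only [List.mem_cons, List.not_mem_nil, or_false] at he
        rcases he with rfl | rfl
        · exact (show 25 < chevF4.nroots ∧ chevF4.nroots / 2 ≤ 25 ∧ 25 ≠ chevF4.simple 1 by decide)
        · exact (show 28 < chevF4.nroots ∧ chevF4.nroots / 2 ≤ 28 ∧ 28 ≠ chevF4.simple 1 by decide))
      simpa using this
    have h4 := Subgroup.mul_mem _ h (Subgroup.inv_mem _ h2)
    have e4 : xF4 27 (1 : K) * xF4 25 1 * xF4 28 1 * (xF4 25 1 * xF4 28 1)⁻¹ = xF4 27 1 := by group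
    rw [e4] at h4
    have h5 : xF4 27 (1 : K) = good3F4.toGood2.xU (good3F4.toGood2.simple_lt (show 1 < chevF4.rank by decide)) 1 :=
      good3F4.toGood2.xN_of_lt _ _
    rw [h5] at h4
    have h6 : (1 : K) = 0 := good3F4.toGood2.xp_mem_Ui (show 1 < chevF4.rank by decide) h4
    exact one_ne_zero h6
  · intro h
    have h1 : xF4 27 (1 : K) ∈ Ui chevF4 K 2 := by
      have := good3F4.toGood2.gW_mem_Ui (F := K) (i := 2) (l := [(27, 1)]) (fun e he => by
        simp only [List.mem_cons, List.not_mem_nil, or_false] at he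
        subst he
        exact (show 27 < chevF4.nroots ∧ chevF4.nroots / 2 ≤ 27 ∧ 27 ≠ chevF4.simple 2 by decide))
      simpa using this
    have h2 : xF4 28 (1 : K) ∈ Ui chevF4 K 2 := by
      have := good3F4.toGood2.gW_mem_Ui (F := K) (i := 2) (l := [(28, 1)]) (fun e he => by
        simp only [List.mem_cons, List.not_mem_nil, or_false] at he
        subst he
        exact (show 28 < chevF4.nroots ∧ chevF4.nroots / 2 ≤ 28 ∧ 28 ≠ chevF4.simple 2 by decide))
      simpa using this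
    have h4 := Subgroup.mul_mem _ (Subgroup.mul_mem _ (Subgroup.inv_mem _ h1) h) (Subgroup.inv_mem _ h2)
    have e4 : (xF4 27 (1 : K))⁻¹ * (xF4 27 1 * xF4 25 1 * xF4 28 1) * (xF4 28 1)⁻¹ = xF4 25 1 := by group
    rw [e4] at h4
    have h5 : xF4 25 (1 : K) = good3F4.toGood2.xU (good3F4.toGood2.simple_lt (show 2 < chevF4.rank by decide)) 1 :=
      good3F4.toGood2.xN_of_lt _ _
    rw [h5] at h4
    have h6 : (1 : K) = 0 := good3F4.toGood2.xp_mem_Ui (show 2 < chevF4.rank by decide) h4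
    exact one_ne_zero h6

/-- The core of the Borel subgroup. -/
theorem coreF4 (hφ : ∀ x, φ (φ (x ^ 2)) = x) : ((chevF4.borelSubgroup K).subgroupOf (twF4 hperf φ).fix).normalCore = ⊥ := by
  obtain ⟨m0, hm0f, hm0⟩ := (twnF4 hperf φ hφ).exists_w0 _ [] 1 (Subgroup.one_mem _) (fun r => by simp) chainF4'
  refine (twnF4 hperf φ hφ).core_trivial m0 hm0f hm0 (fun i hi => ?_)
  have hP : parU φ (1 : K) ∈ chevF4.posUnipotent K := TwN.X_le_U _ ((mem_X0_fix_iff hperf φ hφ).2 ⟨1, rfl⟩).1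
  have hS : suzU φ (1 : K) 0 ∈ chevF4.posUnipotent K := TwN.X_le_U _ ((mem_X1_fix_iff hperf φ hφ).2 ⟨1, 0, rfl⟩).1
  have hi' : i < 4 := hi
  interval_cases i
  · exact ⟨_, hP, parU_fix hperf φ hφ 1, (parU_not_mem_Ui φ).1⟩
  · exact ⟨_, hS, suzU_fix hperf φ hφ 1 0, (suzU_not_mem_Ui φ).1⟩
  · exact ⟨_, hS, suzU_fix hperf φ hφ 1 0, (suzU_not_mem_Ui φ).2⟩
  · exact ⟨_, hP, parU_fix hperf φ hφ 1, (parU_not_mem_Ui φ).2⟩

/-- Simplicity. -/
theorem simpleF4 (hφ : ∀ x, φ (φ (x ^ 2)) = x) {a : K} (ha0 : a ≠ 0) (ha1 : a ≠ 1) :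
    IsSimpleGroup ↥(twF4 hperf φ).fix ∧ ¬ IsMulCommutative ↥(twF4 hperf φ).fix := by
  refine (twnF4 hperf φ hφ).simple ?_ (perfectF4 hperf φ hφ ha0 ha1) (coreF4 hperf φ hφ) (show 0 < 2 by decide)
  intro j hj
  have hj' : j + 1 < 2 := hj
  obtain rfl : j = 0 := by omega
  exact ⟨33, by decide, show wperm digF4.tbl [0, 3] (wperm digF4.tbl [1, 2, 1, 2] 33) ≠ wperm digF4.tbl [1, 2, 1, 2] (wperm digF4.tbl [0, 3] 33) by decide +kernel⟩

end

/-- An element outside the prime field. -/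
theorem exists_ne_F4 {K : Type*} [Field K] [Fintype K] {m : ℕ} (hm : 1 ≤ m) (hK : Fintype.card K = 2 ^ (2 * m + 1)) :
    ∃ a : K, a ≠ 0 ∧ a ≠ 1 := by
  have h2 : 2 < Fintype.card K := by
    rw [hK]
    calc 2 < 2 ^ 3 := by norm_num
      _ ≤ 2 ^ (2 * m + 1) := Nat.pow_le_pow_right (by norm_num) (by omega)
  obtain ⟨a, b, c, hab, hac, hbc⟩ := Fintype.two_lt_card_iff.1 h2
  by_contra h
  push_neg at h
  have h3 : ∀ x : K, x = 0 ∨ x = 1 := fun x => by
    by_cases hx : x = 0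
    · exact Or.inl hx
    · exact Or.inr (h x hx)
  rcases h3 a with rfl | rfl <;> rcases h3 b with rfl | rfl <;> rcases h3 c with rfl | rfl <;> simp_all

end Cfsg.Agent.Lib.Chev
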