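/-
The group ²F₄(q): the `2`-elements have order at most `32`.
-/
import Cfsg.Agent.Lib.Tw.ReeF4f
import Cfsg.Agent.Lib.Chev.UniExp

set_option autoImplicit false
set_option maxRecDepth 100000

namespace Cfsg.Agent.Lib.Chev

open Cfsg.Lie

/-- The shifted heights of the roots of type `F₄`. -/
def htF4 (r : ℕ) : ℕ := [0, 1, 2, 3, 4, 5, 6, 4, 5, 6, 7, 7, 8, 9, 10, 6, 7, 8, 8, 9, 10, 9, 10, 10, 12, 12, 13, 12, 13, 14, 14, 15, 16,
  12, 13, 14, 15, 15, 16, 17, 18, 16, 17, 18, 19, 20, 21, 22].getD r 0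

theorem htF4_chk : ∀ r, r < 48 → 24 ≤ r → (∀ e ∈ (chevF4.chain.getD r #[]).toList, ∀ q ∈ e.2.toList, htF4 e.1 < htF4 q.1) ∧
    htF4 (chevF4.negIdx.getD r 0) < 11 ∧ 11 < htF4 r := by
  decide +kernel

theorem htF4_lt : ∀ r, r < 48 → htF4 r < 23 := by
  decide +kernel

/-- The elements of `U` in characteristic two have exponent dividing `32`. -/
theorem U_pow_F4 {K : Type*} [Field K] [CharP K 2] {g : GL chevF4.Idx K} (hg : g ∈ chevF4.posUnipotent K) : g ^ 32 = 1 := by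
  haveI : Fact (Nat.Prime 2) := ⟨Nat.prime_two⟩
  haveI : Nonempty chevF4.Idx := ⟨Sum.inr ⟨0, by decide⟩⟩
  have h := U_pow_eq_one (F := K) (D := chevF4) (p := 2) (e := 5) (htR := htF4) (h0 := 11) (L := 23)
    (fun r hr => htF4_chk r hr.1 ((good3F4.toGood2.isPos_iff hr.1).1 hr))
    ⟨by norm_num, fun r => htF4_lt r r.2⟩ (by norm_num) hg
  simpa using h

/-- A `p`-element lies in a conjugate of a subgroup of `p`-power order and index prime to `p`. -/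
theorem pow_of_sylow {G : Type*} [Group G] [Finite G] {p e : ℕ} [Fact p.Prime] {S : Subgroup G} (hp : IsPGroup p S) (hidx : ¬ p ∣ S.index)
    (hS : ∀ x ∈ S, x ^ (p ^ e) = 1) {x : G} (hx : ∃ j, orderOf x = p ^ j) : x ^ (p ^ e) = 1 := by
  obtain ⟨j, hj⟩ := hx
  have hP : IsPGroup p (Subgroup.zpowers x) := IsPGroup.of_card (n := j) (by rw [Nat.card_zpowers, hj])
  obtain ⟨Q, hQ⟩ := hP.exists_le_sylow
  obtain ⟨g, hg⟩ := MulAction.exists_smul_eq G Q (hp.toSylow hidx)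
  have h1 : x ∈ (Q : Subgroup G) := hQ (Subgroup.mem_zpowers x)
  have h2 : g * x * g⁻¹ ∈ ((g • Q : Sylow p G) : Subgroup G) := by
    rw [Sylow.coe_subgroup_smul, Subgroup.mem_pointwise_smul_iff_inv_smul_mem, MulAut.smul_def, MulAut.conj_inv_apply]
    have e : g⁻¹ * (g * x * g⁻¹) * g = x := by group
    rwa [e]
  rw [hg] at h2
  have h3 := hS _ h2
  rw [conj_pow, conj_eq_one_iff] at h3
  exact h3

section

variable {K : Type*} [Field K] [Fintype K] {m : ℕ} [CharP K 2] (hperf : ∀ x : K, ∃ y : K, y ^ 2 = x) (φ : K ≃+* K)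

/-- The fixed points of `U` in the group. -/
noncomputable abbrev u1F4 : Subgroup ↥(twF4 hperf φ).fix := (chevF4.posUnipotent K).subgroupOf (twF4 hperf φ).fix

omit [Fintype K] in
lemma card_u1F4 : Nat.card ↥(u1F4 hperf φ) = Nat.card ↥(chevF4.posUnipotent K ⊓ (twF4 hperf φ).fix) := by
  refine Nat.card_congr
    { toFun := fun x => ⟨x.1.1, Subgroup.mem_inf.2 ⟨x.2, x.1.2⟩⟩
      invFun := fun x => ⟨⟨x.1, (Subgroup.mem_inf.1 x.2).2⟩, (Subgroup.mem_inf.1 x.2).1⟩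
      left_inv := fun _ => rfl
      right_inv := fun _ => rfl }

/-- The fixed points of `U` are a Sylow `2`-subgroup. -/
theorem U1_sylow (hK : Fintype.card K = 2 ^ (2 * m + 1)) (hφ : ∀ x, φ (φ (x ^ 2)) = x) :
    IsPGroup 2 ↥(u1F4 hperf φ) ∧ ¬ 2 ∣ (u1F4 hperf φ).index := by
  have hc : Nat.card ↥(u1F4 hperf φ) = (2 ^ (2 * m + 1)) ^ 12 := by
    rw [card_u1F4, cardUF4 hperf φ hφ, cardK_F4 hK]
  refine ⟨IsPGroup.of_card (n := (2 * m + 1) * 12) (by rw [hc, pow_mul]), ?_⟩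
  have h1 := Subgroup.card_mul_index (u1F4 hperf φ)
  rw [hc, orderRee2F4 hperf φ hK hφ] at h1
  have hq : 0 < (2 ^ (2 * m + 1)) ^ 12 := by positivity
  have h2 : (u1F4 hperf φ).index = (2 ^ (2 * m + 1) - 1) * ((2 ^ (2 * m + 1)) ^ 3 + 1) * ((2 ^ (2 * m + 1)) ^ 4 - 1) * ((2 ^ (2 * m + 1)) ^ 6 + 1) := by
    apply Nat.eq_of_mul_eq_mul_left hq
    rw [h1]
    ring
  rw [h2]
  obtain ⟨k, hk⟩ : ∃ k, 2 ^ (2 * m + 1) = 2 * (k + 1) := by
    refine ⟨2 ^ (2 * m) - 1, ?_⟩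
    rw [Nat.sub_add_cancel Nat.one_le_two_pow, pow_succ]
    ring
  rw [hk]
  have e3 : (2 * (k + 1)) ^ 3 = 2 * (4 * (k + 1) ^ 3) := by ring
  have e4 : (2 * (k + 1)) ^ 4 = 2 * (8 * (k + 1) ^ 4) := by ring
  have e6 : (2 * (k + 1)) ^ 6 = 2 * (32 * (k + 1) ^ 6) := by ring
  have p4 : 0 < (k + 1) ^ 4 := by positivity
  rw [e3, e4, e6]
  intro h3
  rcases (Nat.prime_two.dvd_mul).1 h3 with h4 | h4
  · rcases (Nat.prime_two.dvd_mul).1 h4 with h5 | h5
    · rcases (Nat.prime_two.dvd_mul).1 h5 with h6 | h6 <;> omega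
    · omega
  · omega

/-- The elements of `2`-power order of the fixed points have exponent dividing `32`. -/
theorem orderOf_le_32 (hK : Fintype.card K = 2 ^ (2 * m + 1)) (hφ : ∀ x, φ (φ (x ^ 2)) = x) (x : ↥(twF4 hperf φ).fix) (hx : ∃ j : ℕ, orderOf x = 2 ^ j) :
    orderOf x ≤ 32 := by
  haveI : Fact (Nat.Prime 2) := ⟨Nat.prime_two⟩
  haveI : Finite (GL chevF4.Idx K) := inferInstance
  obtain ⟨h1, h2⟩ := U1_sylow hperf φ hK hφ
  have h3 : x ^ (2 ^ 5) = 1 := pow_of_sylow h1 h2 (fun y hy => by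
    apply Subtype.ext
    have := U_pow_F4 (K := K) hy
    simpa using this) hx
  exact Nat.le_of_dvd (by norm_num) (orderOf_dvd_of_pow_eq_one h3)

end

end Cfsg.Agent.Lib.Chev
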